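import Mathlib

/-!
# Three families of `2`-groups
-/

set_option autoImplicit false

namespace Cfsg.Agent.KB

open Subgroup

/-- `⟨a⟩ × ⟨c⟩ ≅ C_(2^k) × C_2` has index two and `t` inverts `a ^ 2`. -/
structure FamB {Q : Type*} [Group Q] (k : ℕ) (a c t : Q) : Prop where
  three_le : 3 ≤ k
  ord : orderOf a = 2 ^ k
  sq : c ^ 2 = 1
  notMem : c ∉ zpowers a
  comm : a * c = c * a
  index : (zpowers a ⊔ zpowers c).index = 2
  inv : t * a ^ 2 * t⁻¹ = (a ^ 2)⁻¹

/-- As `FamB`, with `c` central. -/
structure FamA {Q : Type*} [Group Q] (k : ℕ) (a c t : Q) : Prop extends FamB k a c t where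
  cen : c ∈ center Q

/-- Two-generator groups of order `32` whose commutator subgroup is a four-group. -/
structure FamG (Q : Type*) [Group Q] : Prop where
  card : Nat.card Q = 32
  gen : ∃ x y : Q, zpowers x ⊔ zpowers y = ⊤
  card_comm : Nat.card (commutator Q) = 4
  sq : ∀ x ∈ commutator Q, x ^ 2 = 1

end Cfsg.Agent.KB
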