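import Mathlib
import Cfsg.Agent.KB.Defs2
import Cfsg.Agent.GT.PGroupMaxTwo
import Cfsg.Agent.Inv.TwoAut

/-!
# Elementary facts about the families `FamB` and `FamA`
-/

set_option autoImplicit false

namespace Cfsg.Agent.KB

open Subgroup Cfsg.Agent.GT.PG
open scoped commutatorElement

/-- An automorphism of odd order of an abelian `2`-group of rank two that fixes an involution. -/
theorem fix_of_four {X : Type*} [Group X] {ψ : MulAut X} (hψ : Odd (orderOf ψ)) {R : Subgroup X}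
    (hR : IsPGroup 2 R) (hc : ∀ x ∈ R, ∀ y ∈ R, x * y = y * x) (hi : ∀ x ∈ R, ψ x ∈ R) {z c : X}
    (hz : ψ z = z) (hz2 : z ^ 2 = 1) (hzc : z * c = c * z)
    (h4 : ∀ y ∈ R, y ^ 2 = 1 → y = 1 ∨ y = z ∨ y = c ∨ y = z * c) {x : X} (hx : x ∈ R) :
    ψ x = x := by
  obtain ⟨k, hk⟩ := hR ⟨x, hx⟩
  refine Inv.Fz.fix_of_comm hψ hc hi (fun y hy h1 => ?_) x hx (congrArg Subtype.val hk)
  have h2 : ∀ y, ψ y = y * z → ψ y = y := fun y h =>
    Inv.Fz.fix_of_eq_mul_fixed hψ h hz (k := 1) hz2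
  have h3 := h4 _ (hi y hy) (by rw [← map_pow, sq, h1, map_one])
  have h5 : ∀ w, ψ w = w → ψ y = w → ψ y = y := fun w e1 e2 =>
    e2.trans (ψ.injective (e1.trans e2.symm))
  rcases h4 y hy ((sq y).trans h1) with h6 | h6 | h6 | h6
  · rw [h6, map_one]
  · rw [h6, hz]
  · rcases h3 with h7 | h7 | h7 | h7
    exacts [h5 _ (map_one ψ) h7, h5 _ hz h7, h7.trans h6.symm, h2 _ (by rw [h7, h6, hzc])]
  · rcases h3 with h7 | h7 | h7 | h7
    exacts [h5 _ (map_one ψ) h7, h5 _ hz h7,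
      h2 _ (by rw [h7, h6, hzc, mul_assoc, ← sq, hz2, mul_one]), h7.trans h6.symm]

variable {Q : Type*} [Group Q] {m : ℕ} {a c t g u x y : Q}

/-- The abelian subgroup of index two. -/
abbrev fa (a c : Q) : Subgroup Q := zpowers a ⊔ zpowers c

theorem a_mem_fa : a ∈ fa a c := mem_sup_left (mem_zpowers a)

theorem c_mem_fa : c ∈ fa a c := mem_sup_right (mem_zpowers c)

theorem mem_fa_of_mem (hu : u ∈ zpowers a) : u ∈ fa a c := mem_sup_left hu

theorem zpowers_sq_le (a : Q) : zpowers (a ^ 2) ≤ zpowers a :=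
  zpowers_le.2 (pow_mem (mem_zpowers a) 2)

namespace FamB

variable (h : FamB (m + 1) a c t)
include h

theorem two_le : 2 ≤ m := Nat.le_of_succ_le_succ h.three_le

theorem commute : Commute a c := h.comm

theorem exists_eq (hx : x ∈ fa a c) : ∃ i : ℤ, x = a ^ i ∨ x = a ^ i * c := by
  have h1 : zpowers a ≤ normalizer (zpowers c : Set Q) :=
    zpowers_le.2 (centralizer_le_normalizer _ (by
      rintro _ ⟨i, rfl⟩
      exact (h.commute.zpow_right i).eq.symm))
  rw [← SetLike.mem_coe, coe_mul_of_left_le_normalizer_right _ _ h1] at hx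
  obtain ⟨_, ⟨i, rfl⟩, _, ⟨j, rfl⟩, rfl⟩ := hx
  refine ⟨i, ?_⟩
  rcases Int.even_or_odd' j with ⟨l, rfl | rfl⟩
  · left
    simp only [zpow_mul, zpow_ofNat, h.sq, one_zpow, mul_one]
  · right
    simp only [zpow_add, zpow_mul, zpow_ofNat, h.sq, one_zpow, one_mul, pow_one]

theorem mul_comm' (hx : x ∈ fa a c) (hy : y ∈ fa a c) : x * y = y * x := by
  obtain ⟨i, hi⟩ := h.exists_eq hx
  obtain ⟨j, hj⟩ := h.exists_eq hy
  have h1 : ∀ {y}, Commute a y → Commute c y → Commute x y := fun h1 h2 => by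
    rcases hi with rfl | rfl
    exacts [h1.zpow_left i, (h1.zpow_left i).mul_left h2]
  rcases hj with rfl | rfl
  · exact h1 ((Commute.refl a).zpow_right j) (h.commute.symm.zpow_right j)
  · exact h1 (((Commute.refl a).zpow_right j).mul_right h.commute)
      ((h.commute.symm.zpow_right j).mul_right (Commute.refl c))

theorem zpow_mul_sq (i : ℤ) : (a ^ i * c) ^ 2 = (a ^ 2) ^ i := by
  rw [(h.commute.zpow_left i).mul_pow, h.sq, mul_one, ← zpow_natCast, ← zpow_natCast, ← zpow_mul,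
    ← zpow_mul, mul_comm]

theorem sq_mem (hx : x ∈ fa a c) : x ^ 2 ∈ zpowers (a ^ 2) := by
  obtain ⟨i, rfl | rfl⟩ := h.exists_eq hx
  · exact ⟨i, by simp only [← zpow_natCast, ← zpow_mul, mul_comm]⟩
  · exact ⟨i, (h.zpow_mul_sq i).symm⟩

theorem z_sq : (a ^ 2 ^ m) ^ 2 = 1 := by rw [← pow_mul, ← pow_succ, ← h.ord, pow_orderOf_eq_one]

theorem pow_ne_one {j : ℕ} (hj : j ≤ m) : a ^ 2 ^ j ≠ 1 :=
  pow_ne_one_of_lt_orderOf (by positivity)
    (h.ord ▸ Nat.pow_lt_pow_right one_lt_two (Nat.lt_succ_of_le hj))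

theorem z_ne_one : a ^ 2 ^ m ≠ 1 := h.pow_ne_one le_rfl

theorem four_ne_one : a ^ 4 ≠ 1 := h.pow_ne_one h.two_le

theorem eq_z (hu : u ∈ zpowers a) (h2 : u ^ 2 = 1) : u = 1 ∨ u = a ^ 2 ^ m :=
  eq_one_or_eq_of_sq_eq_one h.ord hu h2

theorem z_mem_four : a ^ 2 ^ m ∈ zpowers (a ^ 4) := by
  obtain ⟨j, rfl⟩ := Nat.exists_eq_add_of_le h.two_le
  rw [pow_add, pow_mul]
  exact pow_mem (mem_zpowers _) _

theorem z_mem_sq : a ^ 2 ^ m ∈ zpowers (a ^ 2) :=
  zpowers_le.2 (show a ^ (2 * 2) ∈ _ from pow_mul a 2 2 ▸ pow_mem (mem_zpowers _) 2) h.z_mem_four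

theorem z_mem : a ^ 2 ^ m ∈ fa a c := pow_mem a_mem_fa _

theorem cases_sq (hx : x ∈ fa a c) (h2 : x ^ 2 = 1) :
    x = 1 ∨ x = a ^ 2 ^ m ∨ x = c ∨ x = a ^ 2 ^ m * c := by
  obtain ⟨i, rfl | rfl⟩ := h.exists_eq hx
  · rcases h.eq_z (zpow_mem (mem_zpowers a) i) h2 with h3 | h3 <;> simp [h3]
  · rw [(h.commute.zpow_left i).mul_pow, h.sq, mul_one] at h2
    rcases h.eq_z (zpow_mem (mem_zpowers a) i) h2 with h3 | h3 <;> simp [h3]

theorem normal : (fa a c).Normal := normal_of_index_eq_two h.index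

theorem conj_self (hg : g ∈ fa a c) (hx : x ∈ fa a c) : g * x * g⁻¹ = x := by
  rw [h.mul_comm' hg hx, mul_inv_cancel_right]

theorem t_notMem : t ∉ fa a c := fun ht => h.four_ne_one (by
  have h1 := h.inv
  rw [h.conj_self ht (pow_mem a_mem_fa 2), eq_inv_iff_mul_eq_one, ← pow_add] at h1
  exact h1)

theorem inv_mul_mem (hx : x ∉ fa a c) (hy : y ∉ fa a c) : x⁻¹ * y ∈ fa a c :=
  (mul_mem_iff_of_index_two h.index).2 (by simp only [Subgroup.inv_mem_iff, hx, hy])

theorem conj_eq (hg : g ∉ fa a c) (hx : x ∈ fa a c) : g * x * g⁻¹ = t * x * t⁻¹ := by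
  rw [← h.conj_self (h.inv_mul_mem h.t_notMem hg) hx]
  have := h.conj_self (h.inv_mul_mem h.t_notMem hg) hx
  calc g * (t⁻¹ * g * x * (t⁻¹ * g)⁻¹) * g⁻¹ = g * x * g⁻¹ := by rw [this]
    _ = _ := by group

theorem conj_cases (g : Q) (hx : x ∈ fa a c) : g * x * g⁻¹ = x ∨ g * x * g⁻¹ = t * x * t⁻¹ :=
  (em (g ∈ fa a c)).imp (h.conj_self · hx) (h.conj_eq · hx)

theorem conj_inv (hg : g ∉ fa a c) (hu : u ∈ zpowers (a ^ 2)) : g * u * g⁻¹ = u⁻¹ := by
  rw [h.conj_eq hg (mem_fa_of_mem (zpowers_sq_le a hu))]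
  obtain ⟨i, rfl⟩ := hu
  simp only
  rw [← conj_zpow, h.inv, inv_zpow]

theorem normal_sq : (zpowers (a ^ 2)).Normal := ⟨fun u hu g => by
  by_cases hg : g ∈ fa a c
  · rwa [h.conj_self hg (mem_fa_of_mem (zpowers_sq_le a hu))]
  · rw [h.conj_inv hg hu]
    exact inv_mem hu⟩

theorem mem_center (hx : x ∈ fa a c) (hg : g ∉ fa a c) (e : g * x = x * g) : x ∈ center Q :=
  mem_center_iff.2 fun y => mul_inv_eq_iff_eq_mul.1 (by
    rcases h.conj_cases y hx with h1 | h1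
    · exact h1
    · rw [h1, ← h.conj_eq hg hx, e, mul_inv_cancel_right])

theorem z_mem_center : a ^ 2 ^ m ∈ center Q :=
  h.mem_center h.z_mem h.t_notMem (mul_inv_eq_iff_eq_mul.1 (by
    rw [h.conj_inv h.t_notMem h.z_mem_sq, inv_eq_iff_mul_eq_one, ← pow_two, h.z_sq]))

theorem center_le : center Q ≤ fa a c := fun x hx => by
  by_contra h1
  have h2 := h.conj_inv h1 (mem_zpowers _)
  rw [← mem_center_iff.1 hx, mul_inv_cancel_right, eq_inv_iff_mul_eq_one, ← pow_add] at h2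
  exact h.four_ne_one h2

theorem pow_four_of_center (hx : x ∈ center Q) : x ^ 4 = 1 := by
  have h2 := h.conj_inv h.t_notMem (h.sq_mem (h.center_le hx))
  rwa [mem_center_iff.1 (pow_mem hx 2), mul_inv_cancel_right, eq_inv_iff_mul_eq_one,
    ← pow_add] at h2

theorem cent_eq (hx : x ∈ fa a c) (h1 : x ∉ center Q) : centralizer {x} = fa a c :=
  le_antisymm (fun g hg => by_contra fun h2 =>
    h1 (h.mem_center hx h2 (mem_centralizer_singleton_iff.1 hg)))
    fun g hg => mem_centralizer_singleton_iff.2 (h.mul_comm' hg hx)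

theorem card_cent_le [Finite Q] (h1 : x ∉ center Q) :
    Nat.card (centralizer ({x} : Set Q)) ≤ Nat.card (fa a c) := by
  have h2 := (centralizer ({x} : Set Q)).card_mul_index
  have h3 := (fa a c).card_mul_index
  have h4 : (centralizer ({x} : Set Q)).index ≠ 1 := fun e => h1 (mem_center_iff.2 fun g =>
    mem_centralizer_singleton_iff.1 (index_eq_one.1 e ▸ mem_top g))
  have h5 := (centralizer ({x} : Set Q)).index_ne_zero_of_finite
  rw [h.index] at h3
  nlinarith [show 2 ≤ (centralizer ({x} : Set Q)).index by omega]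

theorem sq_mem_center (hx : x ∉ fa a c) : x ^ 2 ∈ center Q :=
  h.mem_center ((pow_two x).symm ▸ mul_self_mem_of_index_two h.index x) hx
    ((Commute.refl x).pow_right 2).eq

theorem comm_of_cent (hx : x ∉ fa a c) (hg : g * x = x * g) (hy : y * x = x * y) :
    g * y = y * g := by
  by_cases h1 : y ∈ fa a c
  · exact mem_center_iff.1 (h.mem_center h1 hx hy.symm) g
  · have h2 := mem_center_iff.1 (h.mem_center (h.inv_mul_mem hx h1) hx (by
      rw [mul_assoc, hy]; group)) g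
    calc g * y = g * x * (x⁻¹ * y) := by group
      _ = x * (g * (x⁻¹ * y)) := by rw [hg, mul_assoc]
      _ = y * g := by rw [h2]; group

theorem isConj_z_mul (hx : x ∉ fa a c) : IsConj x (a ^ 2 ^ m * x) := by
  obtain ⟨j, rfl⟩ := Nat.exists_eq_add_of_le' h.two_le
  have h1 : a ^ 2 ^ (j + 1) ∈ zpowers (a ^ 2) := by
    rw [pow_succ' 2 j, pow_mul]
    exact pow_mem (mem_zpowers _) _
  refine isConj_iff.2 ⟨a ^ 2 ^ (j + 1), ?_⟩
  have h2 := h.conj_inv hx (inv_mem h1)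
  calc _ = a ^ 2 ^ (j + 1) * (x * (a ^ 2 ^ (j + 1))⁻¹ * x⁻¹) * x := by group
    _ = _ := by rw [h2, inv_inv, ← pow_two, ← pow_mul, ← pow_succ]

theorem comm_mem (g : Q) (hx : x ∈ fa a c) : ⁅g, x⁆ ∈ fa a c :=
  mul_mem (h.normal.conj_mem x hx g) (inv_mem hx)

theorem comm_mul (g : Q) (hx : x ∈ fa a c) (hy : y ∈ fa a c) : ⁅g, x * y⁆ = ⁅g, x⁆ * ⁅g, y⁆ := by
  calc ⁅g, x * y⁆ = ⁅g, x⁆ * (x * ⁅g, y⁆ * x⁻¹) := by simp only [commutatorElement_def]; group
    _ = _ := by rw [h.conj_self hx (h.comm_mem g hy)]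

theorem comm_sq : ⁅t, a⁆ ^ 2 = (a ^ 4)⁻¹ := by
  rw [pow_two, ← h.comm_mul t a_mem_fa a_mem_fa, ← pow_two, commutatorElement_def, h.inv, ← mul_inv_rev,
    ← pow_add]

theorem four_mem : a ^ 4 ∈ zpowers ⁅t, a⁆ :=
  (Subgroup.inv_mem_iff _).1 (h.comm_sq ▸ pow_mem (mem_zpowers _) 2)

theorem comm_c : ⁅t, c⁆ ∈ zpowers (a ^ 2 ^ m) := by
  have h1 := h.cases_sq (h.normal.conj_mem c c_mem_fa t) (by rw [conj_pow, h.sq]; group)
  have h2 : ∀ w ∈ center Q, t * c * t⁻¹ = w → c = w := fun w hw e => by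
    rw [mul_inv_eq_iff_eq_mul, ← mem_center_iff.1 hw] at e
    exact mul_left_cancel e
  rw [commutatorElement_def]
  rcases h1 with h1 | h1 | h1 | h1
  · exact absurd (h2 _ (one_mem _) h1 ▸ one_mem _) h.notMem
  · exact absurd (h2 _ h.z_mem_center h1 ▸ pow_mem (mem_zpowers a) _) h.notMem
  · rw [h1, mul_inv_cancel]
    exact one_mem _
  · rw [h1, mul_inv_cancel_right]
    exact mem_zpowers _

theorem comm_mem_zpowers (g : Q) (hx : x ∈ fa a c) : ⁅g, x⁆ ∈ zpowers ⁅t, a⁆ := by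
  have h1 : ⁅t, x⁆ ∈ zpowers ⁅t, a⁆ := by
    rw [fa, zpowers_eq_closure a, zpowers_eq_closure c, ← Subgroup.closure_union] at hx
    have h0 : ∀ y ∈ Subgroup.closure ({a} ∪ {c} : Set Q), y ∈ fa a c := fun y hy => by
      rwa [fa, zpowers_eq_closure a, zpowers_eq_closure c, ← Subgroup.closure_union]
    induction hx using Subgroup.closure_induction with
    | mem y hy =>
      rcases hy with rfl | rfl
      exacts [mem_zpowers _, zpowers_le.2 (zpowers_le.2 h.four_mem h.z_mem_four) h.comm_c]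
    | one => simp
    | mul y z hy hz h1 h2 =>
      rw [h.comm_mul t (h0 y hy) (h0 z hz)]
      exact mul_mem h1 h2
    | inv y hy h1 =>
      have h2 := h.comm_mul t (h0 y hy) (inv_mem (h0 y hy))
      rw [mul_inv_cancel, commutatorElement_one_right] at h2
      rw [eq_inv_of_mul_eq_one_right h2.symm]
      exact inv_mem h1
  rw [commutatorElement_def _ x] at h1 ⊢
  rcases h.conj_cases g hx with h2 | h2 <;> rw [h2]
  · simp
  · exact h1

theorem commutator_eq : commutator Q = zpowers ⁅t, a⁆ := by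
  refine le_antisymm (commutator_le.2 fun x _ y _ => ?_)
    (zpowers_le.2 (commutator_mem_commutator (mem_top _) (mem_top _)))
  by_cases hy : y ∈ fa a c
  · exact h.comm_mem_zpowers x hy
  by_cases hx : x ∈ fa a c
  · rw [← commutatorElement_inv y]
    exact inv_mem (h.comm_mem_zpowers y hx)
  · have h1 : y * x⁻¹ ∈ fa a c :=
      (mul_mem_iff_of_index_two h.index).2 (by simp only [Subgroup.inv_mem_iff, hx, hy])
    rw [show ⁅x, y⁆ = ⁅x, y * x⁻¹⁆ by simp only [commutatorElement_def]; group]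
    exact h.comm_mem_zpowers x h1

theorem sq_mem_zpowers {d : Q} (hd : d ∈ commutator Q) : a ^ 2 ∈ zpowers (d * a) := by
  obtain ⟨i, rfl⟩ := h.commutator_eq ▸ hd
  have h1 : (⁅t, a⁆ ^ i * a) ^ 2 = (a ^ 2) ^ (1 - 2 * i) := by
    rw [(show Commute (⁅t, a⁆ ^ i) a from h.mul_comm' (zpow_mem (h.comm_mem t a_mem_fa) i)
      a_mem_fa).mul_pow, ← zpow_natCast (_ ^ i), ← zpow_mul, mul_comm i, zpow_mul, zpow_natCast,
      h.comm_sq]
    group
  have h2 : orderOf (a ^ 2) = 2 ^ m := by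
    simpa using orderOf_pow_prime_pow two_pos h.ord (k := 1) (by omega)
  refine zpowers_sq_le _ ?_
  simp only
  rw [h1, zpowers_zpow_eq_of_odd h2 ⟨-i, by ring⟩]
  exact mem_zpowers _

theorem eq_z_of_mem_commutator (hx : x ∈ commutator Q) (h2 : x ^ 2 = 1) :
    x = 1 ∨ x = a ^ 2 ^ m := by
  obtain ⟨i, rfl⟩ := h.commutator_eq ▸ hx
  simp only at h2 ⊢
  rcases Int.even_or_odd' i with ⟨j, rfl | rfl⟩
  · refine h.eq_z ?_ h2
    rw [zpow_mul, zpow_ofNat, h.comm_sq]
    exact zpow_mem (inv_mem (pow_mem (mem_zpowers a) 4)) j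
  · rw [← zpow_natCast, ← zpow_mul, mul_comm, zpow_mul, zpow_natCast, h.comm_sq, inv_zpow,
      inv_eq_one] at h2
    have h3 : orderOf (a ^ 2 ^ 2) = 2 ^ (m + 1 - 2) :=
      orderOf_pow_prime_pow two_pos h.ord (by have := h.two_le; omega)
    have h4 := zpowers_zpow_eq_of_odd h3 (k := 2 * j + 1) ⟨j, rfl⟩
    rw [show a ^ 2 ^ 2 = a ^ 4 from rfl, h2, zpowers_one_eq_bot] at h4
    exact absurd (mem_bot.1 (h4 ▸ mem_zpowers _)) h.four_ne_one

theorem pow_eq_z (hu : u ∈ fa a c) (ho : orderOf u = orderOf a) : u ^ 2 ^ m = a ^ 2 ^ m := by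
  obtain ⟨j, rfl⟩ := Nat.exists_eq_add_of_le' h.two_le
  refine (h.eq_z ?_ ?_).resolve_left ?_
  · rw [pow_succ', pow_mul]
    exact pow_mem (zpowers_sq_le a (h.sq_mem hu)) _
  · rw [← pow_mul, ← pow_succ, ← h.ord, ← ho, pow_orderOf_eq_one]
  · exact pow_ne_one_of_lt_orderOf (by positivity)
      (by rw [ho, h.ord]; exact Nat.pow_lt_pow_right one_lt_two (Nat.lt_succ_self _))

theorem z_mem_zpowers (hu : u ∈ fa a c) (h2 : u ^ 2 ≠ 1) : a ^ 2 ^ m ∈ zpowers u := by
  have h1 := zpowers_sq_le a (h.sq_mem hu)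
  obtain ⟨j, -, hj⟩ := (Nat.dvd_prime_pow Nat.prime_two).1
    (h.ord ▸ orderOf_dvd_of_mem_zpowers h1)
  obtain ⟨j, rfl⟩ := Nat.exists_eq_succ_of_ne_zero
    (show j ≠ 0 from fun e => h2 (by rwa [e, pow_zero, orderOf_eq_one_iff] at hj))
  rw [← (h.eq_z (pow_mem h1 (2 ^ j)) (by rw [← pow_mul, ← pow_succ, ← hj,
    pow_orderOf_eq_one])).resolve_left (pow_ne_one_of_lt_orderOf (by positivity)
      (by rw [hj]; exact Nat.pow_lt_pow_right one_lt_two (Nat.lt_succ_self _)))]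
  exact pow_mem (pow_mem (mem_zpowers u) 2) _

end FamB

namespace FamA

variable (h : FamA (m + 1) a c t)
include h

theorem mem_center_of_sq (hx : x ∈ fa a c) (h2 : x ^ 2 = 1) : x ∈ center Q := by
  rcases h.cases_sq hx h2 with rfl | rfl | rfl | rfl
  exacts [one_mem _, h.z_mem_center, h.cen, mul_mem h.z_mem_center h.cen]

theorem sq_of_center (hx : x ∈ center Q) : x ^ 2 = 1 := by
  have key : ∀ i : ℤ, a ^ i ∈ center Q → (a ^ i) ^ 2 = 1 := fun i hi => by
    have h2 : ∀ u ∈ zpowers (a ^ 2), u ∈ center Q → u ^ 2 = 1 := fun u hu hu' => by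
      have h3 := h.conj_inv h.t_notMem hu
      rwa [mem_center_iff.1 hu', mul_inv_cancel_right, eq_inv_iff_mul_eq_one, ← pow_two] at h3
    rcases Int.even_or_odd' i with ⟨j, rfl | rfl⟩
    · exact h2 _ ⟨j, by simp only [zpow_mul, zpow_ofNat]⟩ hi
    · have h3 : a ∈ center Q := zpowers_le.2 hi (by
        rw [zpowers_zpow_eq_of_odd h.ord ⟨j, rfl⟩]; exact mem_zpowers a)
      exact absurd (h.pow_four_of_center h3) h.four_ne_one
  obtain ⟨i, rfl | rfl⟩ := h.exists_eq (h.center_le hx)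
  · exact key i hx
  · rw [(h.commute.zpow_left i).mul_pow, h.sq, mul_one]
    exact key i ((mul_mem_cancel_right h.cen).1 hx)

theorem c_notMem_commutator : c ∉ commutator Q := fun h1 => by
  rcases h.eq_z_of_mem_commutator h1 h.sq with h2 | h2
  exacts [h.notMem (h2 ▸ one_mem _), h.notMem (h2 ▸ pow_mem (mem_zpowers a) _)]

theorem fa_z_mul : fa a (a ^ 2 ^ m * c) = fa a c :=
  le_antisymm (sup_le le_sup_left (zpowers_le.2 (mul_mem h.z_mem c_mem_fa)))
    (sup_le le_sup_left (zpowers_le.2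
      ((mul_mem_cancel_left (pow_mem a_mem_fa (2 ^ m))).1 c_mem_fa)))

theorem z_mul : FamA (m + 1) a (a ^ 2 ^ m * c) t where
  three_le := h.three_le
  ord := h.ord
  sq := by rw [(h.commute.pow_left _).mul_pow, h.z_sq, h.sq, one_mul]
  notMem := fun h1 => h.notMem ((mul_mem_cancel_left (pow_mem (mem_zpowers a) _)).1 h1)
  comm := mem_center_iff.1 (mul_mem h.z_mem_center h.cen) a
  index := (congrArg Subgroup.index h.fa_z_mul).trans h.index
  inv := h.inv
  cen := mul_mem h.z_mem_center h.cen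

theorem mem_fa_of_orderOf (ho : orderOf u = orderOf a) : u ∈ fa a c := by
  by_contra h1
  have h2 := h.sq_of_center (h.sq_mem_center h1)
  rw [← pow_mul, ← orderOf_dvd_iff_pow_eq_one, ho, orderOf_dvd_iff_pow_eq_one] at h2
  exact h.four_ne_one h2

theorem isPGroup_mulAut (hQ : IsPGroup 2 Q) [Finite Q] : IsPGroup 2 (MulAut Q) := by
  refine Inv.Fz.isPGroup_mulAut_of_odd fun ψ hψ => Inv.Fz.eq_one_of_fix_index_two hψ
    (hQ.to_subgroup (fa a c)) h.index.dvd fun x hx => ?_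
  have h1 := h.mem_fa_of_orderOf (ψ.orderOf_eq a)
  refine fix_of_four hψ (hQ.to_subgroup _) (fun _ hx _ hy => h.mul_comm' hx hy) ?_ ?_ h.z_sq
    (mem_center_iff.1 h.cen _) (fun _ hy => h.cases_sq hy) hx
  · refine sup_le (a := zpowers a) (b := zpowers c) (c := (fa a c).comap ψ.toMonoidHom)
      (zpowers_le.2 h1) (zpowers_le.2 (h.center_le (mem_center_iff.2 fun y => ?_)))
    obtain ⟨y, rfl⟩ := ψ.surjective y
    simp only [MulEquiv.toMonoidHom_eq_coe, MonoidHom.coe_coe, ← map_mul, mem_center_iff.1 h.cen]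
  · rw [map_pow, h.pow_eq_z h1 (ψ.orderOf_eq a)]

variable {Q' : Type*} [Group Q']

omit h in
theorem map {k : ℕ} (h : FamA k a c t) (e : Q ≃* Q') : FamA k (e a) (e c) (e t) where
  three_le := h.three_le
  ord := (e.orderOf_eq a).trans h.ord
  sq := by rw [← map_pow, h.sq, map_one]
  notMem := fun ⟨i, hi⟩ => h.notMem ⟨i, e.injective (by simpa using hi)⟩
  comm := by rw [← map_mul, h.comm, map_mul]
  index := by
    rw [← h.index, ← index_map_equiv _ e, Subgroup.map_sup, MonoidHom.map_zpowers,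
      MonoidHom.map_zpowers]
    rfl
  inv := by rw [← map_pow, ← map_inv, ← map_mul, ← map_mul, h.inv, map_inv]
  cen := mem_center_iff.2 fun y => by
    obtain ⟨y, rfl⟩ := e.surjective y
    rw [← map_mul, mem_center_iff.1 h.cen, map_mul]

variable {π : Q →* Q'} (hk : π.ker = zpowers c)
include hk

theorem comap_zpowers : (zpowers (π a)).comap π = fa a c := by
  rw [← MonoidHom.map_zpowers, comap_map_eq, hk]

theorem orderOf_pi : orderOf (π a) = 2 ^ (m + 1) := by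
  refine orderOf_eq_prime_pow (fun h1 => ?_) (by rw [← map_pow, ← h.ord, pow_orderOf_eq_one, map_one])
  obtain ⟨i, hi⟩ : a ^ 2 ^ m ∈ zpowers c := hk ▸ (map_pow π a _).trans h1
  rcases Int.even_or_odd' i with ⟨j, rfl | rfl⟩
  · exact h.z_ne_one (by
      simpa only [zpow_mul, zpow_ofNat, h.sq, one_zpow] using hi.symm)
  · simp only [zpow_add, zpow_mul, zpow_ofNat, h.sq, one_zpow, one_mul, pow_one] at hi
    exact h.notMem (hi ▸ pow_mem (mem_zpowers a) _)

theorem maxTwo [Finite Q'] (hQ : IsPGroup 2 Q') (hπ : Function.Surjective π) :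
    ∃ b, MaxTwo m (π a) b := by
  have h1 : (zpowers (π a)).index = 2 := by
    rw [← index_comap_of_surjective _ hπ, h.comap_zpowers hk, h.index]
  have h2 := h.orderOf_pi hk
  have h3 : ¬ Commute (π a ^ 2) (π t) := fun e => by
    have h4 := congrArg π h.inv
    rw [map_mul, map_mul, map_inv, map_inv, map_pow, ← e.eq, mul_inv_cancel_right,
      eq_inv_iff_mul_eq_one, ← pow_add, ← orderOf_dvd_iff_pow_eq_one, h2] at h4
    have h5 := (Nat.pow_dvd_pow_iff_le_right one_lt_two (l := 2)).1 h4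
    have := h.two_le
    omega
  obtain ⟨n, b, h4 | ⟨-, h4, h5, -, h6⟩⟩ := maxTwo_or_modular hQ
    (fun e => h3 (e.is_comm.comm _ _)) h1
  · obtain rfl : n = m := by simpa using h4.orderOf_eq.symm.trans h2
    exact ⟨b, h4⟩
  · refine absurd ?_ h3
    rcases mem_or_mem_of_index_two h1 h5 (π t) with ⟨i, hi⟩ | ⟨i, hi⟩
    · exact hi ▸ ((Commute.refl _).pow_left 2).zpow_right i
    · rw [show π t = b * π a ^ i by rw [show π a ^ i = _ from hi]; group]
      exact (commute_pow_of_modular h4 h6).mul_right (((Commute.refl _).pow_left 2).zpow_right i)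

end FamA

end Cfsg.Agent.KB
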