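import Mathlib

/-!
# Integral symmetric matrices with `N ^ 2 = 4 N` whose product has rank one
-/

set_option autoImplicit false
set_option linter.unusedSectionVars false

namespace Cfsg.Agent.KB

variable {ι : Type*} [Fintype ι] [DecidableEq ι] {N N' : ι → ι → ℤ} {d : ι → ℤ}

/-- The numerical data given by the contribution matrices for the defect group `E₁₆`. -/
structure GC (N N' : ι → ι → ℤ) (d : ι → ℤ) : Prop where
  sym : ∀ i j, N i j = N j i
  sym' : ∀ i j, N' i j = N' j i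
  sq : ∀ i j, ∑ k, N i k * N k j = 4 * N i j
  sq' : ∀ i j, ∑ k, N' i k * N' k j = 4 * N' i j
  tr : ∑ i, N i i = 16
  tr' : ∑ i, N' i i = 16
  mul : ∀ i j, ∑ k, N i k * N' k j = d i * d j
  ne : ∀ i, d i ≠ 0
  sum : ∑ i, d i * d i = 16

namespace GC

variable (h : GC N N' d)
include h

theorem symm : GC N' N d :=
  ⟨h.sym', h.sym, h.sq', h.sq, h.tr', h.tr, fun i j => by
    rw [mul_comm, ← h.mul]
    exact Finset.sum_congr rfl fun k _ => by rw [h.sym' i, h.sym k, mul_comm], h.ne, h.sum⟩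

theorem sum_sq (i : ι) : ∑ k, N i k * N i k = 4 * N i i := by
  rw [← h.sq]
  exact Finset.sum_congr rfl fun k _ => by rw [h.sym k]

theorem mul_d (i : ι) : ∑ k, N i k * d k = 4 * d i := by
  refine mul_right_cancel₀ (h.ne i) ?_
  rw [Finset.sum_mul, mul_assoc, ← h.mul, Finset.mul_sum]
  simp only [mul_assoc, ← h.mul, Finset.mul_sum]
  rw [Finset.sum_comm]
  refine Finset.sum_congr rfl fun j _ => ?_
  simp only [← mul_assoc, ← Finset.sum_mul, h.sq]

theorem pos (i : ι) : 0 < N i i := by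
  by_contra! h1
  have h2 := (Finset.sum_eq_zero_iff_of_nonneg fun k _ => mul_self_nonneg (N i k)).1
    (le_antisymm (by rw [h.sum_sq]; omega) (Finset.sum_nonneg fun k _ => mul_self_nonneg _))
  have h3 := h.mul i i
  rw [Finset.sum_eq_zero fun k hk => by rw [mul_self_eq_zero.1 (h2 k hk), zero_mul]] at h3
  exact h.ne i (mul_self_eq_zero.1 h3.symm)

theorem not_one_two {i₀ : ι} (h0 : d i₀ * d i₀ = 4) (h1 : ∀ i, i ≠ i₀ → d i * d i = 1) : False := by
  have hd : d i₀ = 2 ∨ d i₀ = -2 := mul_self_eq_mul_self_iff.1 (h0.trans (by norm_num))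
  have hd' : ∀ i, i ≠ i₀ → d i = 1 ∨ d i = -1 := fun i hi => mul_self_eq_one_iff.1 (h1 i hi)
  have h2 : ∀ i, 2 ∣ N i₀ i := fun i => by
    have h3 : 2 ∣ ∑ k, N i k * (N i k - d k) := by
      simp only [mul_sub, Finset.sum_sub_distrib, h.sum_sq, h.mul_d]
      omega
    rw [← Finset.add_sum_erase _ _ (Finset.mem_univ i₀), dvd_add_left (Finset.dvd_sum fun k hk => by
      rcases hd' k (Finset.mem_erase.1 hk).1 with h4 | h4 <;> rw [h4]
      · exact (Int.even_mul_pred_self _).two_dvd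
      · exact (sub_neg_eq_add (N i k) 1).symm ▸ (Int.even_mul_succ_self _).two_dvd)] at h3
    rw [h.sym]
    rcases Int.prime_two.dvd_mul.1 h3 with h4 | h4
    · exact h4
    · omega
  choose m hm using h2
  have h3 := h.sum_sq i₀
  have h4 := h.mul_d i₀
  have h5 := h.pos i₀
  rw [← Finset.add_sum_erase _ _ (Finset.mem_univ i₀)] at h3 h4
  have h6 : 0 ≤ ∑ k ∈ Finset.univ.erase i₀, N i₀ k * N i₀ k :=
    Finset.sum_nonneg fun k _ => mul_self_nonneg _
  have h7 : d i₀ * ∑ k ∈ Finset.univ.erase i₀, N i₀ k * d k ≤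
      ∑ k ∈ Finset.univ.erase i₀, N i₀ k * N i₀ k := by
    rw [Finset.mul_sum]
    refine Finset.sum_le_sum fun k hk => ?_
    rw [hm]
    rcases hd' k (Finset.mem_erase.1 hk).1 with h8 | h8 <;> rcases hd with h9 | h9 <;>
      rw [h8, h9] <;> nlinarith [Int.le_self_sq (m k), Int.le_self_sq (-m k)]
  have h8 : m i₀ = 1 ∨ m i₀ = 2 := by
    rw [hm i₀] at h3 h5
    have : m i₀ ≤ 2 := by nlinarith
    omega
  rcases h8 with h8 | h8 <;> rw [hm i₀, h8] at h3 h4
  · rcases hd with h9 | h9 <;> rw [h9] at h4 h7 <;> omega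
  · have h9 := (Finset.sum_eq_zero_iff_of_nonneg fun k _ => mul_self_nonneg (N i₀ k)).1
      (show ∑ k ∈ Finset.univ.erase i₀, N i₀ k * N i₀ k = 0 by omega)
    obtain ⟨j, hj⟩ : ∃ j, j ≠ i₀ := by
      by_contra! h10
      have h11 := h.sum
      rw [Finset.sum_eq_single i₀ (fun j _ hj => absurd (h10 j) hj) (by simp)] at h11
      omega
    have h10 := h.mul i₀ j
    rw [← Finset.add_sum_erase _ _ (Finset.mem_univ i₀), Finset.sum_eq_zero fun k hk => by
      rw [mul_self_eq_zero.1 (h9 k hk), zero_mul], hm, h8] at h10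
    rcases hd' j hj with h11 | h11 <;> rcases hd with h12 | h12 <;> rw [h11, h12] at h10 <;> omega

theorem card_le_or : Fintype.card ι ≤ 10 ∨ ∀ i, d i * d i = 1 := by
  by_contra! h1
  obtain ⟨h1, i₀, h2⟩ := h1
  have h3 : ∀ i, 1 ≤ d i * d i := fun i => mul_self_pos.2 (h.ne i)
  have h4 : ∀ i, d i * d i ≠ 1 → 4 ≤ d i * d i ∧ (d i * d i ≠ 4 → 9 ≤ d i * d i) := fun i hi => by
    have h5 := h.ne i
    have h6 : d i ≠ 1 ∧ d i ≠ -1 := ⟨fun e => hi (by simp [e]), fun e => hi (by simp [e])⟩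
    have h9 : 2 ≤ |d i| := by rcases abs_cases (d i) with h8 | h8 <;> omega
    refine ⟨by nlinarith [abs_mul_abs_self (d i)], fun h7 => ?_⟩
    have h8 : d i ≠ 2 ∧ d i ≠ -2 := ⟨fun e => h7 (by simp [e]), fun e => h7 (by simp [e])⟩
    have h10 : 3 ≤ |d i| := by rcases abs_cases (d i) with h8 | h8 <;> omega
    nlinarith [abs_mul_abs_self (d i)]
  have h5 : ∑ i, (d i * d i - 1) ≤ 5 := by
    rw [Finset.sum_sub_distrib, h.sum, Finset.sum_const, Finset.card_univ]
    simp only [nsmul_eq_mul, mul_one]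
    omega
  refine h.not_one_two (i₀ := i₀) ?_ fun i hi => ?_
  · by_contra h6
    have := (h4 i₀ h2).2 h6
    have := Finset.single_le_sum (f := fun i => d i * d i - 1) (fun i _ => by have := h3 i; omega)
      (Finset.mem_univ i₀)
    omega
  · by_contra h6
    have := (h4 i₀ h2).1
    have := (h4 i h6).1
    have := Finset.sum_le_sum_of_subset_of_nonneg (f := fun i => d i * d i - 1)
      (Finset.subset_univ {i, i₀}) fun i _ _ => by have := h3 i; omega
    rw [Finset.sum_pair hi] at this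
    omega

variable (h1 : ∀ i, d i * d i = 1)
include h1

theorem card_eq : Fintype.card ι = 16 := by
  have h2 := h.sum
  simp only [h1, Finset.sum_const, Finset.card_univ, nsmul_eq_mul, mul_one] at h2
  exact_mod_cast h2

theorem diag (i : ι) : N i i = 1 := by
  have h2 := (Finset.sum_eq_zero_iff_of_nonneg (s := Finset.univ) (f := fun i => N i i - 1)
    fun i _ => by have := h.pos i; omega).1 (by
      rw [Finset.sum_sub_distrib, h.tr, Finset.sum_const, Finset.card_univ, h.card_eq h1]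
      rfl) i (Finset.mem_univ i)
  omega

theorem eq_zero_or (i j : ι) : N i j = 0 ∨ N i j = d i * d j := by
  have h2 : ∀ k, (d i * d k) * (d i * d k) = 1 := fun k => by
    rw [mul_mul_mul_comm, h1, h1, one_mul]
  have h3 := (Finset.sum_eq_zero_iff_of_nonneg (s := Finset.univ)
    (f := fun k => N i k * (N i k - d i * d k)) fun k _ => by
      rcases mul_self_eq_one_iff.1 (h2 k) with h4 | h4 <;> rw [h4] <;>
        nlinarith [Int.le_self_sq (N i k), Int.le_self_sq (-N i k)]).1 (by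
      simp only [mul_sub, Finset.sum_sub_distrib, h.sum_sq, h.diag h1, mul_left_comm _ (d i),
        ← Finset.mul_sum, h.mul_d]
      linear_combination (-4) * h1 i) j (Finset.mem_univ j)
  rcases mul_eq_zero.1 h3 with h4 | h4
  exacts [Or.inl h4, Or.inr (sub_eq_zero.1 h4)]

theorem eq_ite (i j : ι) : N i j = if N i j ≠ 0 then d i * d j else 0 := by
  split_ifs with h2
  exacts [(h.eq_zero_or h1 i j).resolve_left h2, not_not.1 h2]

theorem card_row (i : ι) : (Finset.univ.filter fun k => N i k ≠ 0).card = 4 := by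
  have h2 := h.sum_sq i
  rw [h.diag h1, Finset.sum_congr rfl (g := fun k => if N i k ≠ 0 then 1 else 0) fun k _ => by
    rcases h.eq_zero_or h1 i k with h3 | h3
    · simp [h3]
    · rw [h3, mul_mul_mul_comm, h1, h1, if_pos (mul_ne_zero (h.ne i) (h.ne k)), one_mul],
    Finset.sum_boole] at h2
  exact_mod_cast h2

theorem sum_eq_card (h' : GC N' N d) (i j : ι) : ∑ k, N i k * N' k j =
    d i * d j * (Finset.univ.filter fun k => N i k ≠ 0 ∧ N' k j ≠ 0).card := by
  rw [← Finset.sum_boole, Finset.mul_sum]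
  refine Finset.sum_congr rfl fun k _ => ?_
  split_ifs with h2
  · rw [(h.eq_zero_or h1 i k).resolve_left h2.1, (h'.eq_zero_or h1 k j).resolve_left h2.2]
    linear_combination d i * d j * h1 k
  · rw [mul_zero, mul_eq_zero]
    tauto

theorem trans {i j k : ι} (hij : N i j ≠ 0) (hjk : N j k ≠ 0) : N i k ≠ 0 := by
  have h2 := h.sq i k
  intro h3
  rw [h3, mul_zero, Finset.sum_congr rfl (g := fun l => d i * d k *
    if N i l ≠ 0 ∧ N l k ≠ 0 then 1 else 0) fun l _ => ?_, ← Finset.mul_sum, Finset.sum_boole,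
    mul_eq_zero, mul_eq_zero, Nat.cast_eq_zero, Finset.card_eq_zero] at h2
  · rcases h2 with (h2 | h2) | h2
    exacts [h.ne _ h2, h.ne _ h2, Finset.notMem_empty j (h2 ▸ Finset.mem_filter.2
      ⟨Finset.mem_univ j, hij, hjk⟩)]
  · split_ifs with h4
    · rw [(h.eq_zero_or h1 i l).resolve_left h4.1, (h.eq_zero_or h1 l k).resolve_left h4.2]
      linear_combination d i * d k * h1 l
    · rw [mul_zero, mul_eq_zero]
      tauto

/-- The support of `N` is an equivalence relation. -/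
def setoid : Setoid ι :=
  ⟨fun i j => N i j ≠ 0, fun i => (h.pos i).ne', fun {i j} h2 => h.sym i j ▸ h2, h.trans h1⟩

theorem existsUnique (i j : ι) : ∃! k, N i k ≠ 0 ∧ N' k j ≠ 0 := by
  have h2 := h.sum_eq_card h1 h.symm i j
  rw [h.mul, eq_comm, mul_eq_left₀ (mul_ne_zero (h.ne i) (h.ne j)), Nat.cast_eq_one,
    Finset.card_eq_one] at h2
  obtain ⟨k, hk⟩ := h2
  have h3 : ∀ l, N i l ≠ 0 ∧ N' l j ≠ 0 ↔ l = k := fun l => by
    simpa using Finset.ext_iff.1 hk l
  exact ⟨k, (h3 k).2 rfl, fun l hl => (h3 l).1 hl⟩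

theorem bijective : Function.Bijective fun i =>
    (Quotient.mk (h.setoid h1) i, Quotient.mk (h.symm.setoid h1) i) := by
  refine ⟨fun i j hij => ?_, ?_⟩
  · obtain ⟨h2, h3⟩ := Prod.mk.inj hij
    exact ((h.existsUnique h1 i i).unique ⟨(h.pos i).ne', (h.symm.pos i).ne'⟩
      ⟨Quotient.exact h2, Quotient.exact h3.symm⟩)
  · rintro ⟨⟨i⟩, ⟨j⟩⟩
    obtain ⟨k, h2, -⟩ := h.existsUnique h1 i j
    exact ⟨k, Prod.ext (Quotient.sound h2.1).symm (Quotient.sound h2.2)⟩

theorem card_quot : Nat.card (Quotient (h.symm.setoid h1)) = 4 := by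
  obtain ⟨i⟩ : Nonempty ι := Fintype.card_pos_iff.1 (by rw [h.card_eq h1]; norm_num)
  rw [← h.card_row h1 i, ← Fintype.card_subtype, ← Nat.card_eq_fintype_card]
  refine (Nat.card_eq_of_bijective (fun k : {k // N i k ≠ 0} => Quotient.mk _ k.1)
    ⟨fun k l hkl => Subtype.ext (h.bijective h1 |>.1 (Prod.ext (Quotient.sound
      ((h.setoid h1).trans ((h.setoid h1).symm k.2) l.2)) hkl)), ?_⟩).symm
  rintro ⟨j⟩
  obtain ⟨k, h2, -⟩ := h.existsUnique h1 i j
  exact ⟨⟨k, h2.1⟩, Quotient.sound h2.2⟩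

/-- The indices form a `4 × 4` grid. -/
theorem exists_grid : ∃ X : Fin 4 × Fin 4 ≃ ι,
    (∀ a b, N (X a) (X b) = if a.1 = b.1 then d (X a) * d (X b) else 0) ∧
    ∀ a b, N' (X a) (X b) = if a.2 = b.2 then d (X a) * d (X b) else 0 := by
  let E := Equiv.ofBijective _ (h.bijective h1)
  let e₁ := Finite.equivFinOfCardEq (h.symm.card_quot h1)
  let e₂ := Finite.equivFinOfCardEq (h.card_quot h1)
  refine ⟨(E.trans (e₁.prodCongr e₂)).symm, fun a b => ?_, fun a b => ?_⟩ <;>
    obtain ⟨i, rfl⟩ := (E.trans (e₁.prodCongr e₂)).surjective a <;>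
    obtain ⟨j, rfl⟩ := (E.trans (e₁.prodCongr e₂)).surjective b <;>
    simp only [Equiv.symm_apply_apply]
  · rw [h.eq_ite h1]
    exact if_congr (e₁.injective.eq_iff.trans Quotient.eq).symm rfl rfl
  · rw [h.symm.eq_ite h1]
    exact if_congr (e₂.injective.eq_iff.trans Quotient.eq).symm rfl rfl

end GC

theorem six_le_card_pairs {V : Type*} [AddCommGroup V] [Module ℚ V] [DecidableEq V] (f : Fin 4 → V)
    (h0 : f ≠ 0) (hs : ∑ a, f a = 0) :
    6 ≤ (Finset.univ.filter fun ab : Fin 4 × Fin 4 => f ab.1 ≠ f ab.2).card := by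
  have h1 : ¬ (f 0 = f 1 ∧ f 0 = f 2 ∧ f 0 = f 3) := fun ⟨h1, h2, h3⟩ => h0 (funext fun a => by
    rw [Fin.sum_univ_four, ← h1, ← h2, ← h3] at hs
    have h4 : f 0 = 0 := by
      have : (4 : ℚ) • f 0 = 0 := by rw [← hs]; module
      simpa using this
    fin_cases a <;> simp [← h1, ← h2, ← h3, h4])
  rw [Finset.card_filter, Fintype.sum_prod_type]
  simp only [Fin.sum_univ_four, ne_eq, not_true, if_false, @eq_comm _ (f 1) (f 0),
    @eq_comm _ (f 2) (f 0), @eq_comm _ (f 3) (f 0), @eq_comm _ (f 2) (f 1), @eq_comm _ (f 3) (f 1),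
    @eq_comm _ (f 3) (f 2)]
  split_ifs <;> first | omega | grind

open Classical in
/-- A nonzero `4 × 4` matrix with vanishing row and column sums has many nonzero second
differences. -/
theorem le_card_second_diff (f : Fin 4 × Fin 4 → ℂ) (h0 : f ≠ 0) (h1 : ∀ a, ∑ c, f (a, c) = 0)
    (h2 : ∀ c, ∑ a, f (a, c) = 0) : 36 ≤ (Finset.univ.filter
      fun j : (Fin 4 × Fin 4) × Fin 4 × Fin 4 =>
        f (j.1.1, j.2.1) - f (j.1.2, j.2.1) - (f (j.1.1, j.2.2) - f (j.1.2, j.2.2)) ≠ 0).card := by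
  have h3 := six_le_card_pairs (fun a c => f (a, c)) (fun e => h0 (funext fun ac =>
    congrFun (congrFun e ac.1) ac.2)) (funext fun c => by simpa using h2 c)
  rw [Finset.card_filter, Fintype.sum_prod_type]
  refine le_trans ?_ (Finset.sum_le_sum_of_subset_of_nonneg (Finset.filter_subset
    (fun ab : Fin 4 × Fin 4 => (fun c => f (ab.1, c)) ≠ fun c => f (ab.2, c)) Finset.univ)
    fun _ _ _ => Nat.zero_le _)
  refine le_trans (Nat.mul_le_mul_right 6 h3) ((smul_eq_mul _ _).ge.trans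
    (Finset.card_nsmul_le_sum _ _ 6 fun ab hab => ?_))
  have h4 := six_le_card_pairs (fun c => f (ab.1, c) - f (ab.2, c)) (fun e =>
    (Finset.mem_filter.1 hab).2 (funext fun c => sub_eq_zero.1 (congrFun e c)))
    (by rw [Finset.sum_sub_distrib, h1, h1, sub_self])
  rw [← Finset.card_filter]
  simpa only [sub_ne_zero] using h4

end Cfsg.Agent.KB
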