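import Mathlib
import Cfsg.Agent.KB.Proj
import Cfsg.Agent.KB.GridComb
import Cfsg.Agent.KB.Defs

/-!
# Blocks with defect group `E₁₆` and inertial quotient `C₃ × C₃`
-/

set_option autoImplicit false
set_option linter.unusedSectionVars false
set_option linter.style.haveILetI false

namespace Cfsg.Agent.KB

open MonoidAlgebra Cfsg.Agent.Blk Cfsg.Agent.Blk.Mod Cfsg.Agent.Blk.PD Cfsg.Agent.Ch Cfsg.Agent.GT
  Cfsg.Agent.Blk.Tm Cfsg.Agent.Blk.Ab Cfsg.Agent.GT.CopAct
open scoped ComplexConjugate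

section Grp

variable {Q : Type*} [Group Q] [Fintype Q] {J : Subgroup (MulAut Q)} {A A' : Subgroup Q}

open Classical in
/-- Four times the indicator function of the complement of `A`. -/
noncomputable def cm (A : Subgroup Q) : Q → ℂ := fun v => if v ∈ A then 0 else 4

theorem conj_cm (v : Q) : conj (cm A v) = cm A v := by
  unfold cm
  split_ifs
  exacts [map_zero _, map_ofNat _ 4]

theorem cm_mul_self : cm A * cm A = (4 : ℂ) • cm A := funext fun v => by
  simp only [cm, Pi.mul_apply, Pi.smul_apply, smul_eq_mul]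
  split_ifs <;> simp

namespace Grid

variable (h : Grid J A A')
include h

theorem comm (x y : Q) : x * y = y * x := by
  have h1 : ∀ z : Q, z⁻¹ = z := fun z => inv_eq_of_mul_eq_one_right (h.sq z)
  rw [← h1 (x * y), mul_inv_rev, h1, h1]

theorem index : A.index = 4 := by
  have := A.card_mul_index
  rw [h.card, h.cardA] at this
  omega

theorem gen_cm : IsGeneralizedCharacter Q (cm A) := by
  classical
  convert ((irrOne Q).isGeneralizedCharacter.natCast_smul 4).sub (gen_index h.comm A) using 1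
  funext v
  simp only [cm, Pi.sub_apply, Pi.smul_apply, h.index, coe_irrOne]
  split_ifs <;> simp

theorem mem_iff {σ : MulAut Q} (hσ : σ ∈ J) {x : Q} : σ x ∈ A ↔ x ∈ A :=
  ⟨fun h1 => by simpa using h.invA σ⁻¹ (J.inv_mem hσ) _ h1, h.invA σ hσ x⟩

open Classical in
theorem card_sharp : (Finset.univ.filter fun v => v ∈ A ∧ v ∉ A').card = 3 := by
  have h1 : (Finset.univ.filter fun v => v ∈ A).card = 4 := by
    rw [← h.cardA, Nat.card_eq_fintype_card, Fintype.card_subtype]
  rw [show (Finset.univ.filter fun v => v ∈ A ∧ v ∉ A') =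
      (Finset.univ.filter fun v => v ∈ A).erase 1 from Finset.ext fun v => by
    simpa using ⟨fun h2 => ⟨fun e => h2.2 (e ▸ A'.one_mem), h2.1⟩,
      fun h2 => ⟨h2.2, fun h3 => h2.1 (h.disj v h2.2 h3)⟩⟩,
    Finset.card_erase_of_mem (by simp), h1]

open Classical in
theorem card_out : (Finset.univ.filter fun v => v ∉ A ∧ v ∉ A').card = 9 := by
  have h1 : (Finset.univ.filter fun v => v ∈ A').card = 4 := by
    rw [← h.cardB, Nat.card_eq_fintype_card, Fintype.card_subtype]
  have h2 := Finset.card_filter_add_card_filter_not (s := Finset.univ) fun v => v ∈ A'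
  have h3 := Finset.card_filter_add_card_filter_not (s := Finset.univ.filter fun v => v ∉ A')
    fun v => v ∈ A
  rw [Finset.card_univ, ← Nat.card_eq_fintype_card, h.card, h1] at h2
  simp only [Finset.filter_filter, and_comm (a := _ ∉ A'), h.card_sharp] at h3
  omega

theorem stab_out {x : Q} (h1 : x ∉ A) (h2 : x ∉ A') : Nat.card (MulAction.stabilizer J x) = 1 :=
  Subgroup.card_eq_one.2 (eq_bot_iff.2 fun σ hσ => Subtype.ext (h.free x h1 h2 σ σ.2 hσ))

end Grid

end Grp

section Blk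

variable {G : Type*} [Group G] [Fintype G] {M : Ideal AlgInt} [M.IsMaximal]
  {B : Set (IrrCharacter G)} {P : Subgroup G} [Fintype P] {e : (Res M)[G]} {A A' : Subgroup P}

/-- The class function with coefficients `x` on a grid of characters. -/
noncomputable def gf (X : Fin 4 × Fin 4 ≃ B) (d : B → ℤ) (x : Fin 4 × Fin 4 → ℂ) : G → ℂ :=
  ∑ a, (x a * d (X a)) • ((X a : IrrCharacter G) : G → ℂ)

namespace Grid

variable (hG : Grid (iq P e) A A') (h : AbS 2 M B P e)
include hG h

theorem stab_cm : IsStab 2 P e (cm A) :=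
  h.isStab_iff.2 fun σ hσ v => by
    classical
    exact if_congr (hG.mem_iff hσ) rfl rfl

theorem lv_sharp {v : P} (h1 : v ∈ A) (h2 : v ∉ A') : lv 2 B e v = 3 ∧ ncl 2 e v = 3 := by
  have h3 := hG.stabA v h1 fun h3 => h2 (h3 ▸ A'.one_mem)
  have h4 := h.ncl_mul v
  rw [lv_eq_lk h, lk_eq_card_stab h v h3.le, h3]
  rw [h3, hG.cardJ] at h4
  omega

theorem lk_out {v : P} (h1 : v ∉ A) (h2 : v ∉ A') :
    lk 2 P e ℭ[Subgroup.zpowers (v : G)] = 1 ∧ ncl 2 e v = 9 := by
  have h3 := hG.stab_out h1 h2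
  have h4 := h.ncl_mul v
  rw [lk_eq_card_stab h v (by omega), h3]
  rw [h3, hG.cardJ] at h4
  omega

open Classical in
theorem tr_cm : ∑ χ with χ ∈ B, pr 2 e (cm A') (χ : G → ℂ) χ = 16 := by
  rw [h.mp.sum_pr_self, Finset.sum_congr rfl (g := fun v => (if v ∈ A ∧ v ∉ A' then 4 else 0) +
    if v ∉ A ∧ v ∉ A' then 4 / 9 else 0) fun v _ => ?_, Finset.sum_add_distrib,
    ← Finset.sum_filter, ← Finset.sum_filter, Finset.sum_const, Finset.sum_const, hG.card_sharp,
    hG.card_out]
  · norm_num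
  · by_cases h2 : v ∈ A'
    · simp [cm, h2]
    · by_cases h1 : v ∈ A
      · simp [cm, h1, h2, hG.lv_sharp h h1 h2]
      · simp [cm, h1, h2, lv_eq_lk h, hG.lk_out h h1 h2]

theorem pr_cm_mul {w : P} (h1 : w ∉ A) (h2 : w ∉ A') {α β : G → ℂ} (hα : IsClassFunction G α)
    (hβ : IsClassFunction G β) :
    pr 2 e (cm A * cm A') α β = dn 2 P e w α * conj (dn 2 P e w β) := by
  classical
  have h3 := hG.lk_out h h1 h2
  rw [h.mp.pr_class (v := w) (isStab_of fun v v' hv => by
    rw [Pi.mul_apply, IsStab.eq (hG.stab_cm h) hv, IsStab.eq (hG.symm.stab_cm h) hv, Pi.mul_apply])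
    hα hβ fun v hv => ?_, ← h.card_mul_mm h3.1 hα hβ, hG.card]
  · simp only [Pi.mul_apply, cm, if_neg h1, if_neg h2]
    norm_num
  · have h4 : Finset.univ.filter (FConj 2 e w) = Finset.univ.filter fun v => v ∉ A ∧ v ∉ A' := by
      refine Finset.eq_of_subset_of_card_le (fun v hv => ?_) ?_
      · obtain ⟨σ, hσ, rfl⟩ := h.fConj_iff_iq.1 (Finset.mem_filter.1 hv).2
        simpa [hG.mem_iff hσ, hG.symm.mem_iff hσ] using ⟨h1, h2⟩
      · rw [hG.card_out, ← h3.2, ncl, Nat.card_eq_fintype_card, Fintype.card_subtype]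
    have h5 : ¬ (v ∉ A ∧ v ∉ A') := fun h5 => hv (by simpa [h5] using Finset.ext_iff.1 h4 v)
    simp only [Pi.mul_apply, cm]
    split_ifs <;> first | (simp; done) | exact absurd ⟨‹_›, ‹_›⟩ h5

theorem mm_one_eq {α β : G → ℂ} (hα : blockPart B α = α) (hα' : IsClassFunction G α)
    (hβ : IsClassFunction G β) : mm 2 e α β (1 : P) = classInner α β - pr 2 e (cm A) α β / 4 -
      pr 2 e (cm A') α β / 4 + pr 2 e (cm A * cm A') α β / 16 := by
  classical
  have h1 := h.mp.pr_class (v := 1) (θ := fun v => if v = 1 then 1 else 0) (isStab_of fun v w hv =>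
    if_congr ⟨fun h0 => FConj.eq_one (h0 ▸ h.mp.equiv.symm hv), fun h0 => FConj.eq_one (h0 ▸ hv)⟩
      rfl rfl) hα' hβ fun w hw => if_neg fun h0 : w = 1 => hw (h0 ▸ h.mp.equiv.refl _)
  rw [if_pos rfl, one_mul, show (fun v : P => if v = 1 then (1 : ℂ) else 0) =
    1 - (4⁻¹ : ℂ) • cm A - (4⁻¹ : ℂ) • cm A' + (16⁻¹ : ℂ) • (cm A * cm A') from funext fun v => ?_,
    pr_add, pr_sub, pr_sub, pr_smul, pr_smul, pr_smul, h.mp.pr_one hα hβ] at h1
  · rw [← h1]
    ring
  · have h2 := hG.disj v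
    simp only [Pi.add_apply, Pi.sub_apply, Pi.smul_apply, Pi.mul_apply, Pi.one_apply, cm]
    by_cases h3 : v = 1
    · simp [h3]
    · split_ifs <;> first | (norm_num; done) | tauto

open Classical in
theorem exists_gc : ∃ (N N' : B → B → ℤ) (d : B → ℤ), GC N N' d ∧ ∀ χ ψ : B,
    mm 2 e ((χ : IrrCharacter G) : G → ℂ) (ψ : IrrCharacter G) (1 : P) =
      (if χ = ψ then 1 else 0) - N χ ψ / 4 - N' χ ψ / 4 + d χ * d ψ / 16 := by
  obtain ⟨w, hw⟩ := Finset.card_pos.1 ((Nat.succ_pos 8).trans_eq hG.card_out.symm)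
  obtain ⟨h1, h2⟩ := (Finset.mem_filter.1 hw).2
  have h3 := (hG.lk_out h h1 h2).1
  choose N hN using fun χ ψ : B => h.mp.exists_int_pr (hG.stab_cm h) hG.gen_cm χ.2 ψ
  choose N' hN' using fun χ ψ : B => h.mp.exists_int_pr (hG.symm.stab_cm h) hG.symm.gen_cm χ.2 ψ
  choose d hd using fun χ : B => h.exists_int_dn h3 (hG.sq w) χ.1.isGeneralizedCharacter
  have hs : ∀ F : IrrCharacter G → ℂ, ∑ χ : B, F χ = ∑ χ with χ ∈ B, F χ := fun F =>
    (Finset.sum_subtype _ (by simp) F).symm
  have hb : ∀ χ : B, blockPart B ((χ : IrrCharacter G) : G → ℂ) = χ := fun χ =>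
    blockPart_irr_of_mem χ.2
  have hm : ∀ χ ψ : B, pr 2 e (cm A * cm A') ((χ : IrrCharacter G) : G → ℂ) (ψ : IrrCharacter G) =
      d χ * d ψ := fun χ ψ => by
    rw [hG.pr_cm_mul h h1 h2 χ.1.isClassFunction ψ.1.isClassFunction, hd, hd, map_intCast]
  refine ⟨N, N', d, ⟨fun χ ψ => Int.cast_injective (α := ℂ) ?_,
    fun χ ψ => Int.cast_injective (α := ℂ) ?_, fun χ ψ => Int.cast_injective (α := ℂ) ?_,
    fun χ ψ => Int.cast_injective (α := ℂ) ?_, Int.cast_injective (α := ℂ) ?_,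
    Int.cast_injective (α := ℂ) ?_, fun χ ψ => Int.cast_injective (α := ℂ) ?_, fun χ h0 => ?_,
    Int.cast_injective (α := ℂ) ?_⟩, fun χ ψ => ?_⟩
  · rw [← hN, pr_swap conj_cm, hN, map_intCast]
  · rw [← hN', pr_swap conj_cm, hN', map_intCast]
  · simp only [Int.cast_sum, Int.cast_mul, ← hN, Int.cast_ofNat]
    rw [hs fun η => pr 2 e (cm A) _ (η : G → ℂ) * pr 2 e (cm A) η _,
      h.mp.pr_mul (hG.stab_cm h) (hb χ) (hb ψ), cm_mul_self, pr_smul]
  · simp only [Int.cast_sum, Int.cast_mul, ← hN', Int.cast_ofNat]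
    rw [hs fun η => pr 2 e (cm A') _ (η : G → ℂ) * pr 2 e (cm A') η _,
      h.mp.pr_mul (hG.symm.stab_cm h) (hb χ) (hb ψ), cm_mul_self, pr_smul]
  · simp only [Int.cast_sum, ← hN, Int.cast_ofNat]
    rw [hs fun η => pr 2 e (cm A) (η : G → ℂ) η, hG.symm.tr_cm h]
  · simp only [Int.cast_sum, ← hN', Int.cast_ofNat]
    rw [hs fun η => pr 2 e (cm A') (η : G → ℂ) η, hG.tr_cm h]
  · simp only [Int.cast_sum, Int.cast_mul, ← hN, ← hN']
    rw [hs fun η => pr 2 e (cm A) _ (η : G → ℂ) * pr 2 e (cm A') η _,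
      h.mp.pr_mul (hG.symm.stab_cm h) (hb χ) (hb ψ), hm]
  · exact h.dn_ne_zero h3 χ.2 (by rw [hd, h0, Int.cast_zero])
  · have h4 := h.sum_dn_mul_self h3
    rw [← hs fun η => dn 2 P e w (η : G → ℂ) * conj (dn 2 P e w η), hG.card] at h4
    simpa [hd] using h4
  · rw [hG.mm_one_eq h (hb χ) χ.1.isClassFunction ψ.1.isClassFunction, hN, hN', hm, classInner_irr]
    simp only [Subtype.ext_iff]

open Classical in
/-- Either `l(B) ≤ 3` or the characters form a grid. -/
theorem rank_le_or : blockRank 2 B ≤ 3 ∨ ∃ (X : Fin 4 × Fin 4 ≃ B) (d : B → ℤ),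
    (∀ χ, d χ * d χ = 1) ∧ ∀ x, pRegularPart 2 (gf X d x) = gf X d fun b =>
      x b - (∑ c, x (b.1, c)) / 4 - (∑ a, x (a, b.2)) / 4 + (∑ a, x a) / 16 := by
  obtain ⟨N, N', d, h1, h2⟩ := hG.exists_gc h
  have hs : ∀ F : IrrCharacter G → ℂ, ∑ χ : B, F χ = ∑ χ with χ ∈ B, F χ := fun F =>
    (Finset.sum_subtype _ (by simp) F).symm
  refine h1.card_le_or.imp (fun h3 => ?_) fun h3 => ?_
  · have h4 := sum_mm_one_self h.hM h.hB h.max.toIsPairOf
    rw [← hs fun η => mm 2 e (η : G → ℂ) η (1 : P)] at h4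
    simp only [h2, if_true, Finset.sum_add_distrib, Finset.sum_sub_distrib, ← Finset.sum_div,
      ← Int.cast_mul, ← Int.cast_sum, h1.tr, h1.tr', h1.sum, Finset.sum_const, Finset.card_univ,
      nsmul_eq_mul] at h4
    have h5 : Fintype.card B = blockRank 2 B + 7 := by
      refine Nat.cast_injective (R := ℂ) ?_
      push_cast at h4 ⊢
      linear_combination h4
    omega
  · obtain ⟨X, h4, h5⟩ := h1.exists_grid h3
    refine ⟨X, d, h3, fun x => funext fun g => ?_⟩
    have h6 : ∀ χ, (d χ : ℂ) * d χ = 1 := fun χ => by exact_mod_cast h3 χ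
    simp only [gf, Om.pRegularPart_sum, Om.pRegularPart_smul, Finset.sum_apply, Pi.smul_apply,
      smul_eq_mul, ← h.sum_mm_one_mul (X _).2, Finset.mul_sum,
      ← hs fun η => mm 2 e _ (η : G → ℂ) (1 : P) * (η : G → ℂ) g, ← X.sum_comp]
    rw [Finset.sum_comm]
    refine Finset.sum_congr rfl fun b _ => ?_
    simp only [← mul_assoc]
    rw [← Finset.sum_mul, Finset.sum_congr rfl (g := fun a => ((if a = b then x a else 0) -
      (if a.1 = b.1 then x a else 0) / 4 - (if a.2 = b.2 then x a else 0) / 4 + x a / 16) *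
      d (X b)) fun a _ => ?_, ← Finset.sum_mul]
    · simp only [Finset.sum_add_distrib, Finset.sum_sub_distrib, ← Finset.sum_div,
        Finset.sum_ite_eq', Finset.mem_univ, if_true]
      congr 5
      · rw [Fintype.sum_prod_type_right]
        simp
      · rw [Fintype.sum_prod_type]
        simp
    · rw [h2, h4, h5]
      simp only [X.injective.eq_iff]
      by_cases h7 : a = b
      · subst h7
        simp only [if_true, Int.cast_mul]
        linear_combination (-7 / 16 : ℂ) * x a * d (X a) * h6 (X a)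
      · split_ifs <;> push_cast
        · exact absurd (Prod.ext ‹_› ‹_›) h7
        · linear_combination (-3 / 16 : ℂ) * x a * d (X b) * h6 (X a)
        · linear_combination (-3 / 16 : ℂ) * x a * d (X b) * h6 (X a)
        · linear_combination (1 / 16 : ℂ) * x a * d (X b) * h6 (X a)

end Grid

variable {X : Fin 4 × Fin 4 ≃ B} {d : B → ℤ}

theorem classInner_gf (F : G → ℂ) (x : Fin 4 × Fin 4 → ℤ) : classInner F (gf X d fun a => x a) =
    ∑ a, x a * (d (X a) * classInner F ((X a : IrrCharacter G) : G → ℂ)) := by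
  simp only [gf, classInner_sum_right, classInner_smul_right, map_mul, map_intCast, mul_assoc]

theorem classInner_gf_self (hd : ∀ χ, d χ * d χ = 1) (x : Fin 4 × Fin 4 → ℤ) :
    classInner (gf X d fun a => x a) (gf X d fun a => x a) = (∑ a, x a * x a : ℤ) := by
  classical
  rw [classInner_gf, Int.cast_sum]
  refine Finset.sum_congr rfl fun a _ => ?_
  simp only [gf, classInner_sum_left, classInner_smul_left, classInner_irr, Subtype.coe_inj,
    X.injective.eq_iff, mul_ite, mul_one, mul_zero, Finset.sum_ite_eq', Finset.mem_univ, if_true]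
  have h6 : (d (X a) : ℂ) * d (X a) = 1 := by exact_mod_cast hd _
  push_cast
  linear_combination x a * x a * h6

/-- The test vectors. -/
def tv (j : (Fin 4 × Fin 4) × Fin 4 × Fin 4) (a : Fin 4 × Fin 4) : ℤ :=
  ((if a.1 = j.1.1 then 1 else 0) - if a.1 = j.1.2 then 1 else 0) *
    ((if a.2 = j.2.1 then 1 else 0) - if a.2 = j.2.2 then 1 else 0)

theorem sum_tv_sq : ∑ j, ∑ a, tv j a * tv j a = 576 := by
  have h1 : ∑ j : Fin 4 × Fin 4, ∑ a : Fin 4, ((if a = j.1 then 1 else 0) - if a = j.2 then 1 else 0) *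
      ((if a = j.1 then 1 else 0) - if a = j.2 then (1 : ℤ) else 0) = 24 := by decide
  rw [show (576 : ℤ) = 24 * 24 from rfl]
  nth_rewrite 1 [← h1]
  rw [← h1, Finset.sum_mul_sum, Fintype.sum_prod_type]
  refine Finset.sum_congr rfl fun j _ => Finset.sum_congr rfl fun j' _ => ?_
  rw [Finset.sum_mul_sum, Fintype.sum_prod_type]
  exact Finset.sum_congr rfl fun a _ => Finset.sum_congr rfl fun a' _ => mul_mul_mul_comm ..

theorem sum_tv_mul (j : (Fin 4 × Fin 4) × Fin 4 × Fin 4) (f : Fin 4 × Fin 4 → ℂ) :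
    ∑ a, tv j a * f a =
      f (j.1.1, j.2.1) - f (j.1.2, j.2.1) - (f (j.1.1, j.2.2) - f (j.1.2, j.2.2)) := by
  simp only [tv, Fintype.sum_prod_type, Int.cast_mul, Int.cast_sub, Int.cast_ite, Int.cast_one,
    Int.cast_zero, sub_mul, mul_sub, ite_mul, mul_ite, one_mul, zero_mul, mul_zero,
    Finset.sum_sub_distrib, Finset.sum_ite_eq', Finset.mem_univ, if_true]

theorem sum_tv_left (j : (Fin 4 × Fin 4) × Fin 4 × Fin 4) (c : Fin 4) :
    ∑ a, (tv j (a, c) : ℂ) = 0 := by
  simp [tv, ← Finset.sum_mul]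

theorem sum_tv_right (j : (Fin 4 × Fin 4) × Fin 4 × Fin 4) (a : Fin 4) :
    ∑ c, (tv j (a, c) : ℂ) = 0 := by
  simp [tv, ← Finset.mul_sum]

end Blk

section Main

variable {G : Type*} [Group G] [Fintype G] {M : Ideal AlgInt} [M.IsMaximal]
  {B : Set (IrrCharacter G)} {P : Subgroup G} {e : (Res M)[G]} {v : P}
  {b : Set (IrrCharacter ℭ[Subgroup.zpowers (v : G)])} {K : Type*} [Group K] [Fintype K]
  {φ : ℭ[Subgroup.zpowers (v : G)] →* K} {Q : Subgroup K} {g : (Res M)[K]}

theorem QD.card_le_of_grid (h : QD 2 B P (Subgroup.zpowers (v : G)) e b φ Q g)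
    (hd : blockDefect 2 b = blockDefect 2 B) {A A' : Subgroup Q} (hG : Grid (iq Q g) A A') :
    Nat.card B ≤ 2 ^ blockDefect 2 B := by
  classical
  haveI := Fintype.ofFinite Q
  have hA := h.abS hG.comm
  rcases hG.rank_le_or hA with h1 | ⟨X, d, h1, h2⟩
  · exact (card_le_of_rank_le_three h.isSub hd (h.rank_eq ▸ h1)).2
  have h3 := h.isSub.mul_card_le_sum_quot hd h.cq.reg h.cq.cen (Ψ := fun j => gf X d fun a => tv j a)
    (m := 36) (fun j => ?_) (fun j => ?_) fun F hF hF0 => ?_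
  · simp only [classInner_gf_self h1, Complex.intCast_re, ← Int.cast_sum, sum_tv_sq] at h3
    rw [← hd, ← h.cq.reg.card_ker_mul_pow_blockDefect h.hM h.blk, ← hA.card_eq, hG.card]
    have h4 : 36 * Nat.card B ≤ Nat.card φ.ker * 576 := by exact_mod_cast h3
    omega
  · have h4 := h2 fun a => tv j a
    simp only [sum_tv_left, sum_tv_right, Fintype.sum_prod_type, Finset.sum_const_zero, zero_div,
      sub_zero, add_zero] at h4
    rw [← h4, gf, Om.pRegularPart_sum]
    exact Submodule.sum_mem _ fun a _ => by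
      rw [Om.pRegularPart_smul]
      exact Submodule.smul_mem _ _ (irr_mem_regSp (X a).2)
  · exact IsGeneralizedCharacter.sum fun a _ => by
      rw [← Int.cast_mul]
      exact (X a).1.isGeneralizedCharacter.intCast_smul _
  · simp only [classInner_gf, sum_tv_mul]
    have h4 : ∀ x : Fin 4 × Fin 4 → ℤ, (∀ b : Fin 4 × Fin 4, (x b : ℂ) - (∑ c, (x (b.1, c) : ℂ)) / 4 -
        (∑ a, (x (a, b.2) : ℂ)) / 4 + (∑ a, (x a : ℂ)) / 16 = 0) →
        ∑ a, x a * (d (X a) * classInner F ((X a : IrrCharacter K) : K → ℂ)) = 0 := fun x hx => by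
      rw [← classInner_gf]
      refine classInner_eq_zero_of_reg hF fun y hy => ?_
      rw [← pRegularPart_of_not_dvd (p := 2) (gf X d fun a => x a) hy, h2]
      simp [gf, hx]
    refine le_card_second_diff (fun a => d (X a) * classInner F ((X a : IrrCharacter K) : K → ℂ))
      (fun h5 => hF0 ?_) (fun a => ?_) fun c => ?_
    · rw [← blockPart_eq_of_mem_regSp h.hM (h.qblk.memLocalRing_blockCoeff h.hM) hF,
        blockPart_eq_sum]
      refine Finset.sum_eq_zero fun χ _ => ?_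
      split_ifs with h6
      · have h7 := congrFun h5 (X.symm ⟨χ, h6⟩)
        rw [X.apply_symm_apply, Pi.zero_apply, mul_eq_zero, Int.cast_eq_zero] at h7
        rw [h7.resolve_left fun h8 => by simpa [h8] using h1 ⟨χ, h6⟩, zero_smul]
      · exact zero_smul _ _
    · have h5 := h4 (fun b => if b.1 = a then 1 else 0) fun b => by
        simp only [Fintype.sum_prod_type]
        by_cases h6 : b.1 = a <;> simp [h6] <;> norm_num
      rw [Fintype.sum_prod_type] at h5
      simpa using h5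
    · have h5 := h4 (fun b => if b.2 = c then 1 else 0) fun b => by
        simp only [Fintype.sum_prod_type_right]
        by_cases h6 : b.2 = c <;> simp [h6] <;> norm_num
      rw [Fintype.sum_prod_type_right] at h5
      simpa using h5

end Main

end Cfsg.Agent.KB
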