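import Mathlib
import Cfsg.Agent.KB.Defs2
import Cfsg.Agent.KB.GrpThree

/-! # 2-groups with a cyclic subgroup of index at most four -/

set_option autoImplicit false
set_option linter.unusedSectionVars false

namespace Cfsg.Agent.KB

open Subgroup

universe u

namespace GC

variable {D : Type*} [Group D]

theorem zp_inv {ρ a b : D} (ha : a ∈ zpowers ρ) (hb : b ∈ zpowers ρ) (a2 : a ^ 2 = 1)
    (b2 : b ^ 2 = 1) (a1 : a ≠ 1) (b1 : b ≠ 1) : a = b := by
  obtain ⟨i, rfl⟩ := mem_zpowers_iff.1 ha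
  obtain ⟨j, rfl⟩ := mem_zpowers_iff.1 hb
  rw [pow_two, ← zpow_add, ← orderOf_dvd_iff_zpow_eq_one] at a2 b2
  rw [Ne, ← orderOf_dvd_iff_zpow_eq_one] at a1 b1
  rw [zpow_eq_zpow_iff_modEq, Int.modEq_iff_dvd]
  obtain ⟨k, hk⟩ := a2
  obtain ⟨l, hl⟩ := b2
  rcases Int.even_or_odd' k with ⟨k', rfl | rfl⟩
  · exact absurd ⟨k', by linarith⟩ a1
  rcases Int.even_or_odd' l with ⟨l', rfl | rfl⟩
  · exact absurd ⟨l', by linarith⟩ b1
  exact ⟨l' - k', by linarith⟩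

theorem zpow_sq (a : D) (k : ℤ) : (a ^ k) ^ 2 = (a ^ 2) ^ k := by
  rw [← zpow_natCast, ← zpow_mul, mul_comm, zpow_mul, zpow_natCast]

theorem index_pow_four [Finite D] (a : D) : (zpowers (a ^ 4)).index ≤ 4 * (zpowers a).index := by
  have h1 := (zpowers (a ^ 4)).index_mul_card
  have h2 := (zpowers a).index_mul_card
  rw [Nat.card_zpowers] at h1 h2
  have h3 : orderOf a ≤ 4 * orderOf (a ^ 4) := Nat.le_of_dvd
    (Nat.mul_pos (by norm_num) (orderOf_pos _))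
    (orderOf_dvd_of_pow_eq_one (by rw [pow_mul, pow_orderOf_eq_one]))
  have h4 := orderOf_pos (a ^ 4)
  refine Nat.le_of_mul_le_mul_right ?_ h4
  rw [h1, ← h2]
  calc (zpowers a).index * orderOf a ≤ (zpowers a).index * (4 * orderOf (a ^ 4)) :=
        Nat.mul_le_mul_left _ h3
    _ = _ := by ring

theorem conj_conj {g x : D} {k : ℤ} (h : g * x * g⁻¹ = x ^ k) :
    g ^ 2 * x * (g ^ 2)⁻¹ = x ^ k ^ 2 := by
  rw [show g ^ 2 * x * (g ^ 2)⁻¹ = g * (g * x * g⁻¹) * g⁻¹ by rw [pow_two]; group, h,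
    ← conj_zpow, h, ← zpow_mul, pow_two]

/-- An automorphism of order at most two of a cyclic 2-group. -/
theorem conj_cases {g x : D} {k : ℤ} {m : ℕ} (hx : orderOf x = 2 ^ (m + 1))
    (h : g * x * g⁻¹ = x ^ k) (h2 : g ^ 2 * x = x * g ^ 2) :
    (2 : ℤ) ^ m ∣ k - 1 ∨ (2 : ℤ) ^ m ∣ k + 1 := by
  refine GT.PG.int_two_pow_dvd_or ?_
  have h3 := conj_conj h
  rw [h2, mul_inv_cancel_right] at h3
  have h4 : x ^ (k ^ 2 - 1) = 1 := by rw [zpow_sub, ← h3, zpow_one, mul_inv_cancel]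
  rw [← orderOf_dvd_iff_zpow_eq_one, hx] at h4
  exact_mod_cast h4

theorem zpow_eq_one_of {x : D} {m : ℕ} (hx : orderOf x = 2 ^ m) {k : ℤ} (h : (2 : ℤ) ^ m ∣ k) :
    x ^ k = 1 := by
  rw [← orderOf_dvd_iff_zpow_eq_one, hx]
  exact_mod_cast h

variable [Finite D]

theorem two_of_lt (hD : IsPGroup 2 D) {A B : Subgroup D} (h4 : A.index ≤ 4) (h : A < B)
    (hB : B ≠ ⊤) : A.relIndex B = 2 ∧ B.index = 2 := by
  have h1 := relIndex_mul_index h.le
  have h2 : A.relIndex B ≠ 1 := fun e => h.not_ge (relIndex_eq_one.1 e)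
  have h3 : B.index ≠ 1 := fun e => hB (index_eq_one.1 e)
  have h5 : A.index ≠ 0 := index_ne_zero_of_finite
  have : Fact (Nat.Prime 2) := ⟨Nat.prime_two⟩
  obtain ⟨k, hk⟩ := hD.index A
  have h6 : 2 ≤ A.relIndex B := by
    rcases Nat.lt_or_ge (A.relIndex B) 2 with h | h
    · interval_cases A.relIndex B <;> simp_all
    · exact h
  have h7 : 2 ≤ B.index := by
    rcases Nat.lt_or_ge B.index 2 with h | h
    · interval_cases B.index <;> simp_all
    · exact h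
  constructor <;> nlinarith

theorem conj_sq_mem (hD : IsPGroup 2 D) {a : D} (h4 : (zpowers a).index ≤ 4) (ha : a ≠ 1) (g : D) :
    g * a ^ 2 * g⁻¹ ∈ zpowers (a ^ 2) := by
  have : Fact (Nat.Prime 2) := ⟨Nat.prime_two⟩
  by_cases hN : normalizer (zpowers a : Set D) = ⊤
  · obtain ⟨k, hk⟩ := mem_zpowers_iff.1 ((mem_normalizer_iff.1
      (show g ∈ normalizer (zpowers a : Set D) from hN ▸ mem_top g) a).1 (mem_zpowers a))
    rw [← conj_pow, ← hk, zpow_sq]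
    exact zpow_mem_zpowers _ _
  have := hD.isNilpotent
  have hlt : zpowers a < normalizer (zpowers a : Set D) := Group.normalizerCondition_of_isNilpotent _
    (lt_top_iff_ne_top.2 fun e => hN (by rw [e]; exact normalizer_eq_top _))
  obtain ⟨h1, h2⟩ := two_of_lt hD h4 hlt hN
  have hb : g * a * g⁻¹ ∈ normalizer (zpowers a : Set D) :=
    (normal_of_index_eq_two h2).conj_mem a (hlt.le (mem_zpowers a)) g
  have h3 : (g * a * g⁻¹) ^ 2 ∈ zpowers a :=
    sq_mem_of_index_two (H := (zpowers a).subgroupOf _) h1 ⟨_, hb⟩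
  rw [conj_pow] at h3
  obtain ⟨k, hk⟩ := mem_zpowers_iff.1 h3
  rcases Int.even_or_odd' k with ⟨j, rfl | rfl⟩
  · rw [← hk, zpow_mul, zpow_ofNat]
    exact zpow_mem_zpowers _ _
  · exfalso
    obtain ⟨n, hn⟩ := (IsPGroup.iff_orderOf.1 hD) a
    have h5 := GT.PG.zpowers_zpow_eq_of_odd hn (k := 2 * j + 1) ⟨j, rfl⟩
    have h6 : orderOf (a ^ 2) = orderOf a := by
      rw [← Nat.card_zpowers a, ← h5, Nat.card_zpowers, hk]
      exact (MulAut.conj g).orderOf_eq (a ^ 2) |>.symm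
    rcases n with _ | n
    · exact ha (orderOf_eq_one_iff.1 hn)
    · have h7 := GT.PG.orderOf_pow_prime_pow two_pos hn (k := 1) (by omega)
      rw [pow_one, h6, hn] at h7
      have := Nat.pow_right_injective le_rfl h7
      omega

theorem maxTwo_of (hD : IsPGroup 2 D) {a x : D} (hx : centralizer {a ^ 2} = zpowers x)
    (hi : (zpowers x).index = 2) : ∃ (m : ℕ) (a b : D), GT.PG.MaxTwo m a b := by
  have hna : ¬ IsMulCommutative D := fun hc => by
    have : zpowers x = ⊤ := by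
      rw [← hx, eq_top_iff]
      exact fun g _ => mem_centralizer_singleton_iff.2 (hc.is_comm.comm _ _)
    rw [this, index_top] at hi
    omega
  obtain ⟨m, b, h | ⟨-, h1, h2, -, h3⟩⟩ := GT.PG.maxTwo_or_modular hD hna hi
  · exact ⟨m, x, b, h⟩
  · exfalso
    have ha : a ∈ zpowers x := hx ▸ mem_centralizer_singleton_iff.2 ((Commute.refl a).pow_right 2).eq
    obtain ⟨i, rfl⟩ := mem_zpowers_iff.1 ha
    refine h2 (hx ▸ mem_centralizer_singleton_iff.2 ?_)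
    have h4 : b * x ^ 2 * b⁻¹ = x ^ 2 := by
      rw [← conj_pow, h3, ← pow_mul, add_mul, pow_add, one_mul, ← pow_succ, ← h1,
        pow_orderOf_eq_one, mul_one]
    rw [← zpow_natCast, ← zpow_mul, mul_comm i, zpow_mul, zpow_natCast, ← mul_inv_eq_iff_eq_mul,
      ← conj_zpow, h4]

/-- If `⟨a⟩` is the centralizer of `a²`, it has index two. -/
theorem index_two (hD : IsPGroup 2 D) {a : D} (h4 : (zpowers a).index ≤ 4) {r : ℕ}
    (hr : orderOf a = 2 ^ (r + 3)) (hn : (zpowers a).Normal) (hH : centralizer {a ^ 2} = zpowers a)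
    (hne : zpowers a ≠ ⊤) : (zpowers a).index = 2 := by
  have : Fact (Nat.Prime 2) := ⟨Nat.prime_two⟩
  have h2 : orderOf (a ^ 2) = 2 ^ (r + 2) := by
    simpa using GT.PG.orderOf_pow_prime_pow two_pos hr (k := 1) (by omega)
  have hk : ∀ g : D, ∃ k : ℤ, g * a * g⁻¹ = a ^ k := fun g =>
    let ⟨k, hk⟩ := mem_zpowers_iff.1 (hn.conj_mem a (mem_zpowers a) g)
    ⟨k, hk.symm⟩
  have hsq : ∀ {g : D} {k : ℤ}, g * a * g⁻¹ = a ^ k → g * a ^ 2 * g⁻¹ = (a ^ 2) ^ k := fun h => by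
    rw [← conj_pow, h, ← zpow_natCast, ← zpow_mul, mul_comm, zpow_mul, zpow_natCast]
  have key : ∀ {g : D} {k : ℤ}, g * a * g⁻¹ = a ^ k → g ∉ zpowers a → g ^ 2 ∈ zpowers a →
      (2 : ℤ) ^ (r + 2) ∣ k + 1 := fun {g k} e hg hg2 => by
    obtain ⟨i, hi⟩ := mem_zpowers_iff.1 hg2
    refine (conj_cases hr e (by rw [← hi]; exact ((Commute.refl a).zpow_left i).eq)).resolve_left
      fun h => hg (hH ▸ mem_centralizer_singleton_iff.2 ?_)
    rw [← mul_inv_eq_iff_eq_mul, hsq e, ← sub_add_cancel k 1, zpow_add_one, zpow_eq_one_of h2 h,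
      one_mul]
  have h5 : ∀ g : D, g ^ 2 ∈ zpowers a := fun g => by
    by_contra hg
    obtain ⟨k, e⟩ := hk g
    obtain ⟨j, hj⟩ := hD.index (zpowers a)
    have h6 : (zpowers a).index ∣ 4 := by
      rw [hj] at h4 ⊢
      exact pow_dvd_pow 2 ((Nat.pow_le_pow_iff_right (by norm_num : 1 < 2)).1
        (show 2 ^ j ≤ 2 ^ 2 from h4))
    obtain ⟨c, hc⟩ := h6
    have h7 := key (conj_conj e) hg (by
      rw [← pow_mul, show 2 * 2 = 4 from rfl, hc, pow_mul]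
      exact pow_mem (pow_index_mem _ g) c)
    have h8 : (4 : ℤ) ∣ k ^ 2 + 1 := (Dvd.intro_left (2 ^ r) (by ring)).trans h7
    rcases Int.even_or_odd' k with ⟨l, rfl | rfl⟩
    · have : (4 : ℤ) ∣ 4 * l ^ 2 + 1 := by convert h8 using 1; ring
      omega
    · have : (4 : ℤ) ∣ 4 * (l ^ 2 + l) + 2 := by convert h8 using 1; ring
      omega
  have h9 : ∀ g ∉ zpowers a, g * a ^ 2 * g⁻¹ = (a ^ 2)⁻¹ := fun g hg => by
    obtain ⟨k, e⟩ := hk g
    rw [hsq e, ← add_sub_cancel_right k 1, zpow_sub_one, zpow_eq_one_of h2 (key e hg (h5 g)),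
      one_mul]
  obtain ⟨t, ht⟩ : ∃ t, t ∉ zpowers a := by
    by_contra! h
    exact hne (eq_top_iff.2 fun g _ => h g)
  refine index_eq_two_iff.2 ⟨t, fun b => ?_⟩
  by_cases hb : b ∈ zpowers a
  · exact Or.inr ⟨hb, fun h => ht ((mul_mem_cancel_left hb).1 h)⟩
  · refine Or.inl ⟨hH ▸ mem_centralizer_singleton_iff.2 ?_, hb⟩
    rw [← mul_inv_eq_iff_eq_mul, show b * t * a ^ 2 * (b * t)⁻¹ = b * (t * a ^ 2 * t⁻¹) * b⁻¹ by
      group, h9 t ht, ← conj_inv, h9 b hb, inv_inv]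

/-- The action of `H = C(a²)` on `⟨a⟩`. -/
theorem conj_a {a g : D} (hi : (zpowers a).relIndex (centralizer {a ^ 2}) = 2)
    (hg : g ∈ centralizer ({a ^ 2} : Set D)) :
    ∃ w ∈ zpowers a, w ^ 2 = 1 ∧ g * a * g⁻¹ = a * w := by
  have ha : a ∈ centralizer ({a ^ 2} : Set D) :=
    mem_centralizer_singleton_iff.2 ((Commute.refl a).pow_right 2).eq
  have h1 : g * a * g⁻¹ ∈ zpowers a :=
    (normal_of_index_eq_two hi).conj_mem ⟨a, ha⟩ (mem_zpowers a) ⟨g, hg⟩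
  obtain ⟨k, hk⟩ := mem_zpowers_iff.1 h1
  refine ⟨a⁻¹ * a ^ k, mul_mem (inv_mem (mem_zpowers a)) (zpow_mem_zpowers _ _), ?_, by
    rw [mul_inv_cancel_left, hk]⟩
  rw [((Commute.refl a).inv_left.zpow_right k).mul_pow, hk, conj_pow,
    mem_centralizer_singleton_iff.1 hg, mul_inv_cancel_right, inv_pow, inv_mul_cancel]

theorem sq_mul {a c w : D} (hw : w ∈ zpowers a) (h : c * a * c⁻¹ = a * w) (i : ℤ) :
    (a ^ i * c) ^ 2 = a ^ (2 * i) * w ^ i * c ^ 2 := by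
  obtain ⟨k, rfl⟩ := mem_zpowers_iff.1 hw
  rw [pow_two, show a ^ i * c * (a ^ i * c) = a ^ i * (c * a ^ i * c⁻¹) * (c * c) by group,
    ← conj_zpow, h, ((Commute.refl a).zpow_right k).mul_zpow, pow_two, two_mul, zpow_add]
  group

theorem exists_inv {a : D} {r : ℕ} (hr : orderOf a = 2 ^ (r + 3))
    (hi : (zpowers a).relIndex (centralizer {a ^ 2}) = 2)
    (hc : ∀ x, centralizer {a ^ 2} ≠ zpowers x) :
    ∃ c ∈ centralizer ({a ^ 2} : Set D), c ∉ zpowers a ∧ c ^ 2 = 1 := by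
  have hle : zpowers a ≤ centralizer ({a ^ 2} : Set D) :=
    zpowers_le.2 (mem_centralizer_singleton_iff.2 ((Commute.refl a).pow_right 2).eq)
  obtain ⟨g, hg, hga⟩ := SetLike.exists_of_lt (lt_of_le_of_ne hle (hc a).symm)
  obtain ⟨i, hi'⟩ := mem_zpowers_iff.1
    (show g ^ 2 ∈ zpowers a from sq_mem_of_index_two (H := (zpowers a).subgroupOf _) hi ⟨g, hg⟩)
  rcases Int.even_or_odd' i with ⟨j, rfl | rfl⟩
  swap
  · refine absurd (le_antisymm (fun x hx => ?_) (zpowers_le.2 hg)) (hc g)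
    have h1 : zpowers a ≤ zpowers g := by
      rw [← GT.PG.zpowers_zpow_eq_of_odd hr (k := 2 * j + 1) ⟨j, rfl⟩, hi', zpowers_le]
      exact npow_mem_zpowers g 2
    rcases GT.PG.mem_or_mem_of_index_two (H := (zpowers a).subgroupOf _) hi (b := ⟨g, hg⟩) hga
      ⟨x, hx⟩ with h | h
    · exact h1 h
    · exact (mul_mem_cancel_left (inv_mem (mem_zpowers g))).1 (h1 h)
  obtain ⟨w, hw, w2, e⟩ := conj_a hi hg
  have h1 : (a ^ (-j) * g) ^ 2 = w ^ (-j) := by
    obtain ⟨k, rfl⟩ := mem_zpowers_iff.1 hw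
    rw [sq_mul hw e, ← hi']
    group
  have h2 : ∀ l : ℤ, a ^ l * g ∈ centralizer ({a ^ 2} : Set D) := fun l =>
    mul_mem (hle (zpow_mem_zpowers _ _)) hg
  have h3 : ∀ l : ℤ, a ^ l * g ∉ zpowers a := fun l h =>
    hga ((mul_mem_cancel_left (zpow_mem_zpowers _ _)).1 h)
  by_cases h4 : w ^ (-j) = 1
  · exact ⟨_, h2 _, h3 _, h1.trans h4⟩
  have hz : orderOf (a ^ 2 ^ (r + 2)) = 2 := by
    simpa using GT.PG.orderOf_pow_prime_pow two_pos hr (k := r + 2) (by omega)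
  have h5 : w ^ (-j) = a ^ 2 ^ (r + 2) := zp_inv (zpow_mem hw _) (npow_mem_zpowers _ _)
    (by rw [← zpow_natCast, ← zpow_mul, mul_comm, zpow_mul, zpow_natCast, w2, one_zpow])
    (orderOf_dvd_iff_pow_eq_one.1 hz.dvd) h4 (fun e => by rw [e, orderOf_one] at hz; omega)
  refine ⟨a ^ 2 ^ (r + 1) * (a ^ (-j) * g), mul_mem (hle (npow_mem_zpowers _ _)) (h2 _),
    fun h => h3 _ ((mul_mem_cancel_left (npow_mem_zpowers _ _)).1 h), ?_⟩
  have h6 : Commute (a ^ 2 ^ (r + 1)) (a ^ (-j) * g) := by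
    rw [pow_succ', pow_mul]
    exact (Commute.pow_right (mem_centralizer_singleton_iff.1 (h2 _)) _).symm
  rw [h6.mul_pow, h1, h5, ← pow_mul, ← pow_succ, ← pow_two, ← pow_mul, ← pow_succ, ← hr,
    pow_orderOf_eq_one]

end GC

open GC in
theorem cases_cyclic {D : Type u} [Group D] [Finite D] (hD : IsPGroup 2 D) {a : D}
    (h4 : (zpowers a).index ≤ 4) :
    (∃ u ∈ center D, (zpowers u).index ≤ 16) ∨ (∃ (m : ℕ) (a b : D), GT.PG.MaxTwo m a b) ∨
    ∃ u ∈ center D, ∀ (Q : Type u) [Group Q] (π : D →* Q), Function.Surjective π →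
      π.ker = zpowers u → ∃ (k : ℕ) (a c t : Q), FamA k a c t := by
  have : Fact (Nat.Prime 2) := ⟨Nat.prime_two⟩
  by_cases h4c : a ^ 4 ∈ center D
  · exact Or.inl ⟨_, h4c, (index_pow_four a).trans (by omega)⟩
  right
  obtain ⟨n, hn⟩ := (IsPGroup.iff_orderOf.1 hD) a
  have ha4 : a ^ 4 ≠ 1 := fun e => h4c (e ▸ one_mem _)
  have ha : a ≠ 1 := fun e => ha4 (by rw [e, one_pow])
  have hJ := conj_sq_mem hD h4 ha
  obtain ⟨r, rfl⟩ : ∃ r, n = r + 3 := by
    refine ⟨n - 3, ?_⟩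
    by_contra h
    exact ha4 (orderOf_dvd_iff_pow_eq_one.1 (hn ▸ pow_dvd_pow 2 (show n ≤ 2 by omega)))
  have hz : orderOf (a ^ 2 ^ (r + 2)) = 2 := by
    simpa using GT.PG.orderOf_pow_prime_pow two_pos hn (k := r + 2) (by omega)
  have hz2 : (a ^ 2 ^ (r + 2)) ^ 2 = 1 := orderOf_dvd_iff_pow_eq_one.1 hz.dvd
  have hz1 : a ^ 2 ^ (r + 2) ≠ 1 := fun e => by rw [e, orderOf_one] at hz; omega
  have hzc : a ^ 2 ^ (r + 2) ∈ center D := mem_center_iff.2 fun g => by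
    rw [← mul_inv_eq_iff_eq_mul]
    refine zp_inv (ρ := a) ?_ (npow_mem_zpowers _ _) (by rw [conj_pow, hz2]; group) hz2
      (fun e => hz1 (conj_eq_one_iff.1 e)) hz1
    rw [pow_succ', pow_mul, ← conj_pow]
    exact pow_mem (zpowers_le.2 (npow_mem_zpowers a 2) (hJ g)) _
  obtain ⟨s, rfl⟩ : ∃ s, r = s + 1 := by
    rcases r with _ | r
    · exact absurd hzc h4c
    · exact ⟨r, rfl⟩
  have hcen : ∀ g ∈ centralizer ({a ^ 2} : Set D), g * a ^ 4 = a ^ 4 * g := fun g hg => by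
    rw [show 4 = 2 * 2 from rfl, pow_mul]
    exact (Commute.pow_right (mem_centralizer_singleton_iff.1 hg) 2).eq
  have hH : centralizer ({a ^ 2} : Set D) ≠ ⊤ := fun e =>
    h4c (mem_center_iff.2 fun g => hcen g (e ▸ mem_top g))
  have hHn : (centralizer ({a ^ 2} : Set D)).Normal := ⟨fun x hx g => by
    obtain ⟨k, hk⟩ := mem_zpowers_iff.1 (hJ g⁻¹)
    have h1 : Commute x (g⁻¹ * a ^ 2 * g⁻¹⁻¹) :=
      hk ▸ Commute.zpow_right (mem_centralizer_singleton_iff.1 hx) k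
    rw [mem_centralizer_singleton_iff, show g * x * g⁻¹ * a ^ 2 =
      g * (x * (g⁻¹ * a ^ 2 * g⁻¹⁻¹)) * g⁻¹ by group, h1.eq]
    group⟩
  have hle : zpowers a ≤ centralizer ({a ^ 2} : Set D) :=
    zpowers_le.2 (mem_centralizer_singleton_iff.2 ((Commute.refl a).pow_right 2).eq)
  by_cases hHa : centralizer {a ^ 2} = zpowers a
  · exact Or.inl (maxTwo_of hD hHa (index_two hD h4 hn (hHa ▸ hHn) hHa (hHa ▸ hH)))
  obtain ⟨hi, hi2⟩ := two_of_lt hD h4 (lt_of_le_of_ne hle (Ne.symm hHa)) hH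
  by_cases hcyc : ∃ x, centralizer {a ^ 2} = zpowers x
  · obtain ⟨x, hx⟩ := hcyc
    exact Or.inl (maxTwo_of hD hx (hx ▸ hi2))
  obtain ⟨c, hc, hca, c2⟩ := exists_inv hn hi fun x e => hcyc ⟨x, e⟩
  obtain ⟨w, hw, w2, e⟩ := conj_a hi hc
  have hmem : ∀ x ∈ centralizer ({a ^ 2} : Set D), x ∉ zpowers a → x * c⁻¹ ∈ zpowers a :=
    fun x hx hxa => (mul_mem_iff_of_index_two (H := (zpowers a).subgroupOf _) hi (a := ⟨x, hx⟩)
      (b := ⟨c⁻¹, inv_mem hc⟩)).2 ⟨fun h => absurd h hxa, fun h => absurd (inv_mem_iff.1 h) hca⟩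
  have hcc : ∀ g : D, g * c * g⁻¹ * c⁻¹ ∈ zpowers (a ^ 2 ^ (s + 1 + 2)) := fun g => by
    have g2 : (g * c * g⁻¹) ^ 2 = 1 := by rw [conj_pow, c2]; group
    have h1 : g * c * g⁻¹ ∉ zpowers a := fun h => by
      have h2 := zp_inv h (npow_mem_zpowers _ _) g2 hz2
        (fun e => hca (conj_eq_one_iff.1 e ▸ one_mem _)) hz1
      refine hca ?_
      rw [show c = g⁻¹ * (g * c * g⁻¹) * g by group, h2, mem_center_iff.1 hzc, inv_mul_cancel_right]
      exact npow_mem_zpowers _ _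
    obtain ⟨i, hi'⟩ := mem_zpowers_iff.1 (hmem _ (hHn.conj_mem c hc g) h1)
    have h3 := sq_mul hw e i
    rw [hi', inv_mul_cancel_right, g2, c2, mul_one] at h3
    have h5 : (a ^ i) ^ 2 = 1 := by
      rcases Int.even_or_odd' i with ⟨j, rfl | rfl⟩
      · rw [zpow_mul w, zpow_ofNat, w2, one_zpow, mul_one] at h3
        rw [← zpow_natCast, ← zpow_mul, mul_comm]
        exact h3.symm
      · exfalso
        have h6 : a ^ (2 * (2 * j + 1)) = (w ^ (2 * j + 1))⁻¹ := eq_inv_of_mul_eq_one_left h3.symm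
        have h7 : (a ^ 4) ^ (2 * j + 1) = 1 := by
          rw [show (a ^ 4) ^ (2 * j + 1) = (a ^ (2 * (2 * j + 1))) ^ 2 by group, h6, inv_pow,
            ← zpow_natCast, ← zpow_mul, mul_comm, zpow_mul, zpow_natCast, w2, one_zpow, inv_one]
        have h8 := GT.PG.zpowers_zpow_eq_of_odd
          (GT.PG.orderOf_pow_prime_pow two_pos hn (k := 2) (by omega)) (k := 2 * j + 1) ⟨j, rfl⟩
        rw [show 2 ^ 2 = 4 from rfl, h7, zpowers_one_eq_bot] at h8
        exact ha4 (mem_bot.1 (h8 ▸ mem_zpowers _))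
    rw [← hi']
    by_cases h9 : a ^ i = 1
    · rw [h9]; exact one_mem _
    · rw [zp_inv (zpow_mem_zpowers a i) (npow_mem_zpowers _ _) h5 hz2 h9 hz1]
      exact mem_zpowers _
  obtain ⟨t, ht⟩ : ∃ t, t ∉ centralizer ({a ^ 2} : Set D) := by
    by_contra! h
    exact hH (eq_top_iff.2 fun g _ => h g)
  obtain ⟨k, hk⟩ := mem_zpowers_iff.1 (hJ t)
  have hb : orderOf (a ^ 2) = 2 ^ (s + 2 + 1) := by
    simpa using GT.PG.orderOf_pow_prime_pow two_pos hn (k := 1) (by omega)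
  have hk2 : (2 : ℤ) ^ (s + 2) ∣ k + 1 := by
    refine (conj_cases hb hk.symm (mem_centralizer_singleton_iff.1
      (sq_mem_of_index_two hi2 t))).resolve_left fun h => h4c (mem_center_iff.2 fun g => ?_)
    have h1 : t * a ^ 4 = a ^ 4 * t := by
      rw [← mul_inv_eq_iff_eq_mul, show 4 = 2 * 2 from rfl, pow_mul, ← conj_pow, ← hk,
        ← zpow_natCast, ← zpow_mul, show k * ((2 : ℕ) : ℤ) = 2 * (k - 1) + 2 by push_cast; ring,
        zpow_add, zpow_eq_one_of hb (by rw [pow_succ']; exact mul_dvd_mul_left 2 h), one_mul,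
        zpow_ofNat]
    rcases GT.PG.mem_or_mem_of_index_two hi2 ht g with hg | hg
    · exact hcen g hg
    · rw [← mul_inv_cancel_left t g, mul_assoc, hcen _ hg, ← mul_assoc, h1, mul_assoc]
  refine Or.inr ⟨_, hzc, fun Q _ π hπ hker => ⟨s + 3, π a, π c, π t, ?_⟩⟩
  have hone : ∀ x ∈ zpowers (a ^ 2 ^ (s + 1 + 2)), π x = 1 := fun x hx => by
    rw [← hker] at hx; exact hx
  have hka : π.ker ≤ zpowers a := by rw [hker, zpowers_le]; exact npow_mem_zpowers _ _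
  have hcen' : π c ∈ center Q := mem_center_iff.2 fun q => by
    obtain ⟨g, rfl⟩ := hπ q
    have := hone _ (hcc g)
    rwa [map_mul, map_mul, map_mul, map_inv, map_inv, mul_inv_eq_one, mul_inv_eq_iff_eq_mul] at this
  refine ⟨⟨by omega, orderOf_eq_prime_pow (fun h => hz1 ?_)
    (by rw [← map_pow]; exact hone _ (mem_zpowers _)), by rw [← map_pow, c2, map_one],
    fun h => hca ?_, mem_center_iff.1 hcen' _, ?_, ?_⟩, hcen'⟩
  · rw [← map_pow, ← MonoidHom.mem_ker, hker] at h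
    obtain ⟨i, hi'⟩ := mem_zpowers_iff.1 h
    rw [pow_succ, pow_mul, ← hi', ← zpow_natCast, ← zpow_mul, mul_comm, zpow_mul, zpow_natCast,
      hz2, one_zpow]
  · rw [← MonoidHom.map_zpowers, ← mem_comap, comap_map_eq_self hka] at h
    exact h
  · have h1 : zpowers a ⊔ zpowers c = centralizer {a ^ 2} := by
      refine le_antisymm (sup_le hle (zpowers_le.2 hc)) fun x hx => ?_
      by_cases hxa : x ∈ zpowers a
      · exact mem_sup_left hxa
      · rw [← inv_mul_cancel_right x c]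
        exact mul_mem_sup (hmem x hx hxa) (mem_zpowers c)
    rw [← MonoidHom.map_zpowers, ← MonoidHom.map_zpowers, ← Subgroup.map_sup, h1,
      index_map_eq _ hπ (hka.trans hle), hi2]
  · obtain ⟨l, hl⟩ := hk2
    rw [← map_pow, ← map_inv, ← map_inv, ← map_mul, ← map_mul, ← hk, ← add_sub_cancel_right k 1,
      zpow_sub_one, map_mul, hone, one_mul]
    rw [hl, zpow_mul]
    refine zpow_mem ?_ l
    rw [show (2 : ℤ) ^ (s + 2) = ((2 ^ (s + 2) : ℕ) : ℤ) by push_cast; rfl, zpow_natCast, ← pow_mul,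
      ← pow_succ']
    exact mem_zpowers _

end Cfsg.Agent.KB
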