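import Mathlib
import Cfsg.Agent.KB.Defs2
import Cfsg.Agent.KB.GrpThree
import Cfsg.Agent.KB.GrpAux

/-!
# Two-generator `2`-groups of order at most `64`
-/

set_option autoImplicit false

namespace Cfsg.Agent.KB

open Subgroup Cfsg.Agent.GT.PG AF GX
open scoped commutatorElement

universe u

namespace GGen

variable {D : Type u} [Group D] [Finite D]

omit [Finite D] in
theorem step {N : Subgroup D} (hN : commutator D ≤ N) {g : D} (h : g ^ 2 ∈ N) :
    Nat.card ↥(N ⊔ zpowers g) ≤ 2 * Nat.card N := by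
  have := normal_of_commutator_le hN
  exact card_sup_le (mem_norm N g) h

omit [Finite D] in
theorem conj_sq {h t : D} (hc : h * (h⁻¹ * (t * h * t⁻¹)) = h⁻¹ * (t * h * t⁻¹) * h) :
    t * h ^ 2 * t⁻¹ = h ^ 2 * (h⁻¹ * (t * h * t⁻¹)) ^ 2 := by
  rw [← conj_pow, ← Commute.mul_pow hc, mul_inv_cancel_left]

omit [Finite D] in
theorem card_two {u : D} (h1 : u ≠ 1) (h2 : u ^ 2 = 1) : Nat.card (zpowers u) = 2 := by
  rw [Nat.card_zpowers, orderOf_eq_prime h2 h1]

theorem famG_of (h64 : Nat.card D = 64) {x y : D} (hgen : zpowers x ⊔ zpowers y = ⊤) {u : D}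
    (h1 : u ≠ 1) (h2 : u ^ 2 = 1)
    (hc : Nat.card (commutator D) = 4 * Nat.card ↥(zpowers u ⊓ commutator D))
    (hs : ∀ g ∈ commutator D, g ^ 2 ∈ zpowers u) {Q : Type*} [Group Q] {π : D →* Q}
    (hπ : Function.Surjective π) (hker : π.ker = zpowers u) : FamG Q := by
  have hm : (commutator D).map π = commutator Q := by
    rw [map_commutator_eq, MonoidHom.range_eq_top.2 hπ]; rfl
  refine ⟨?_, ⟨π x, π y, ?_⟩, ?_, fun q hq => ?_⟩
  · have := card_map_mul π ⊤
    rw [map_top_of_surjective _ hπ, inf_top_eq, hker, card_two h1 h2, card_top, card_top,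
      h64] at this
    omega
  · rw [← MonoidHom.map_zpowers, ← MonoidHom.map_zpowers, ← Subgroup.map_sup, hgen]
    exact map_top_of_surjective _ hπ
  · have := card_map_mul π (commutator D)
    rw [hm, hker, hc] at this
    exact Nat.eq_of_mul_eq_mul_right Nat.card_pos this
  · obtain ⟨g, hg, rfl⟩ : q ∈ (commutator D).map π := hm ▸ hq
    rw [← map_pow, ← MonoidHom.mem_ker, hker]
    exact hs g hg

section
variable (h64 : Nat.card D = 64) {x y : D} (hgen : zpowers x ⊔ zpowers y = ⊤)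
  (hZ : ∀ u ∈ center D, u ^ 2 = 1)
include h64 hgen hZ

omit [Finite D] in
theorem not_central : ¬ commutator D ≤ center D := by
  intro h
  have key : ∀ {a b : D}, zpowers a ⊔ zpowers b = ⊤ → a ^ 2 ∈ center D := fun {a b} hab => by
    have he := h (conj_comm_mem b a)
    refine mem_center_of_gen hab (Commute.self_pow a 2).eq ?_
    rw [← mul_inv_eq_iff_eq_mul, conj_sq (mem_center_iff.1 he a), hZ _ he, mul_one]
  have he := h (conj_comm_mem y x)
  have hn := normal_zpowers_of_center he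
  have h0 := comm_le_of_gen hgen _ (mem_zpowers (x⁻¹ * (y * x * y⁻¹)))
  have c0 := card_zpowers_le two_ne_zero (hZ _ he)
  set N := zpowers (x⁻¹ * (y * x * y⁻¹))
  have c1 := step h0 (g := x ^ 2) (by rw [hZ _ (key hgen)]; exact one_mem _)
  have c2 := step (h0.trans (le_sup_left (b := zpowers (x ^ 2)))) (g := y ^ 2)
    (by rw [hZ _ (key (sup_comm (zpowers x) _ ▸ hgen))]; exact one_mem _)
  have h2 : commutator D ≤ N ⊔ zpowers (x ^ 2) ⊔ zpowers (y ^ 2) :=
    h0.trans (le_sup_left.trans le_sup_left)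
  have c3 := step h2 (g := x) (mem_sup_left (mem_sup_right (mem_zpowers _)))
  have c4 := step (h2.trans (le_sup_left (b := zpowers x))) (g := y)
    (mem_sup_left (mem_sup_right (mem_zpowers _)))
  rw [show N ⊔ zpowers (x ^ 2) ⊔ zpowers (y ^ 2) ⊔ zpowers x ⊔ zpowers y = ⊤ by
    rw [sup_assoc, hgen, sup_top_eq], card_top] at c4
  omega

/-- commutator subgroup cyclic of order eight is impossible -/
theorem not_cyclic_eight (h8 : ∀ a : D, a ^ 8 = 1) (hc : Nat.card (commutator D) = 8) :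
    ∀ g ∈ commutator D, g ^ 4 = 1 := by
  intro e0 he0
  by_contra h4
  have hze : zpowers e0 = commutator D := eq_of_le_of_card_le ((zpowers_le).2 he0) (by
    rw [Nat.card_zpowers, orderOf_eight (h8 e0) h4, hc]; norm_num)
  have hcj : ∀ {e : D}, e ∈ commutator D → ∀ g, g * e * g⁻¹ ∈ zpowers e := fun {e} he g => by
    obtain ⟨j, rfl⟩ : e ∈ zpowers e0 := hze ▸ he
    obtain ⟨k, hk⟩ : g * e0 * g⁻¹ ∈ zpowers e0 :=
      hze ▸ (inferInstance : (commutator D).Normal).conj_mem e0 he0 g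
    simp only at hk ⊢
    rw [← conj_zpow, ← hk, ← zpow_mul, mul_comm, zpow_mul]
    exact zpow_mem (mem_zpowers _) k
  have hw4 : (e0 ^ 2) ^ 4 = 1 := by rw [← pow_mul]; exact h8 e0
  have hw2 : (e0 ^ 2) ^ 2 ≠ 1 := by rw [← pow_mul]; exact h4
  have hHi := (index_cent_four hw4 hw2 (hcj (pow_mem he0 2)) fun h => hw2 (hZ _ h)).1
  set H := centralizer ({e0 ^ 2} : Set D)
  obtain ⟨h, hh, t, -, hg⟩ := exists_pair hHi hgen
  have he := conj_comm_mem t h
  set e := h⁻¹ * (t * h * t⁻¹) with hedef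
  have hn : (zpowers e).Normal := ⟨fun n hn g =>
    (zpowers_le.2 hn) (hcj ((zpowers_le.2 he) hn) g)⟩
  have hez : zpowers e = commutator D :=
    le_antisymm ((zpowers_le).2 he) (comm_le_of_gen hg _ (mem_zpowers e))
  have he4 : e ^ 4 ≠ 1 := fun h' => by
    have := card_zpowers_le (by norm_num) h'
    rw [hez] at this
    omega
  have hinv : ∀ c ∈ commutator D, c ^ 2 = 1 → c = 1 ∨ c = e ^ 4 := fun c hc' h' =>
    eq_of_mem_eight (h8 e) he4 (hez ▸ hc') h'
  have he8 : (e ^ 4) ^ 2 = 1 := by rw [← pow_mul]; exact h8 e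
  have hcen : ∀ g, g * e ^ 4 * g⁻¹ = e ^ 4 := fun g => by
    refine (hinv _ ((inferInstance : (commutator D).Normal).conj_mem _ (pow_mem he 4) g)
      (by rw [conj_pow, he8]; simp)).resolve_left fun h' => he4 ?_
    rwa [mul_inv_eq_one, mul_eq_left] at h'
  -- `h` centralises the squares in the commutator subgroup
  have hsq : ∀ c ∈ commutator D, h * c ^ 2 = c ^ 2 * h := fun c hc' => by
    obtain ⟨j, rfl⟩ : c ∈ zpowers e0 := hze ▸ hc'
    refine comm_zpowers (mem_cent.1 hh) _ ⟨j, ?_⟩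
    simp only
    rw [← zpow_natCast, ← zpow_natCast, ← zpow_mul, ← zpow_mul, mul_comm]
  have hab : ∀ c ∈ commutator D, ∀ d ∈ commutator D, c * d = d * c := by
    rw [← hze]; exact isMulCommutative_iff_forall.1 inferInstance
  have h4m : h ^ 4 ∈ commutator D := by
    have hle : commutator D ≤ H := fun c hc' => mem_cent.2 (hab c hc' _ (pow_mem he0 2))
    have h1 := relIndex_mul_card hle
    have h2 := H.card_mul_index
    rw [hHi, h64] at h2
    rw [hc] at h1
    have := pow_relIndex_mem (commutator D) hh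
    rwa [show (commutator D).relIndex H = 4 by omega] at this
  have hfix : t * h ^ 4 * t⁻¹ = h ^ 4 := by
    rcases hinv _ h4m (by rw [← pow_mul]; exact h8 h) with h' | h'
    · rw [h']; simp
    · rw [h', hcen]
  -- compute the conjugate of `h ^ 4`
  have he' : h⁻¹ * e * h ∈ commutator D := by
    simpa using (inferInstance : (commutator D).Normal).conj_mem e he h⁻¹
  obtain ⟨f, hf⟩ : ∃ f, f = h⁻¹ * e * h * e := ⟨_, rfl⟩
  have hfm : f ∈ commutator D := hf ▸ mul_mem he' he
  have hf2 : f ^ 2 = e ^ 4 := by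
    have : (h⁻¹ * e * h) ^ 2 = e ^ 2 := by
      calc (h⁻¹ * e * h) ^ 2 = h⁻¹ * (e ^ 2 * h) := by rw [pow_two, pow_two]; group
        _ = e ^ 2 := by rw [← hsq e he]; group
    rw [hf, Commute.mul_pow (hab _ he' e he), this, ← pow_add]
  have hhf : h * f = f * h := by
    have h2 : h⁻¹ * f * h = f := by
      -- `f` is a square in the cyclic group
      obtain ⟨k, hk⟩ : h⁻¹ * e * h ∈ zpowers e := hez ▸ he'
      simp only at hk
      rcases Int.even_or_odd' k with ⟨l, rfl | rfl⟩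
      · exfalso
        apply he4
        have h3 : (h⁻¹ * e * h) ^ 4 = 1 := by
          rw [← hk, ← zpow_natCast, ← zpow_mul, show 2 * l * (4 : ℕ) = (8 : ℕ) * l by push_cast; ring,
            zpow_mul, zpow_natCast, h8, one_zpow]
        have h5 := conj_pow (a := h⁻¹) (b := e) (i := 4)
        rw [inv_inv, h3, eq_comm, mul_assoc, inv_mul_eq_one, eq_comm, mul_eq_right] at h5
        exact h5
      · have h3 : f = (e ^ (l + 1)) ^ 2 := by
          rw [hf, ← hk, ← zpow_add_one, ← zpow_natCast, ← zpow_mul]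
          congr 1
          push_cast
          ring
        rw [h3, mul_assoc, ← hsq _ (zpow_mem he _), inv_mul_cancel_left]
    rw [← h2]
    calc h * (h⁻¹ * f * h) = f * h := by group
      _ = h⁻¹ * f * h * h := by rw [h2]
  have e2 : t * h ^ 2 * t⁻¹ = h ^ 2 * f := by
    rw [← conj_pow, hf, hedef, pow_two, pow_two]; group
  have e4 : t * h ^ 4 * t⁻¹ = h ^ 4 * e ^ 4 := by
    rw [show 4 = 2 * 2 from rfl, pow_mul, ← conj_pow, e2,
      Commute.mul_pow (Commute.pow_left (show Commute h f from hhf) 2), hf2]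
  rw [hfix, eq_comm, mul_eq_left] at e4
  exact he4 e4

omit hZ in
theorem case_eight (hD : IsPGroup 2 D) (hc : Nat.card (commutator D) = 8)
    (h4 : ∀ g ∈ commutator D, g ^ 4 = 1) :
    ∃ u ∈ center D, ∀ (Q : Type u) [Group Q] (π : D →* Q), Function.Surjective π →
      π.ker = zpowers u → FamG Q := by
  obtain ⟨u, hu, huZ, hu1, hu2, hs⟩ : ∃ u ∈ commutator D, u ∈ center D ∧ u ≠ 1 ∧ u ^ 2 = 1 ∧
      ∀ g ∈ commutator D, g ^ 2 ∈ zpowers u := by
    by_cases hsq : ∀ g ∈ commutator D, g ^ 2 = 1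
    · obtain ⟨z, hz, hzZ, hz1, hz2⟩ := exists_mem_center_of_normal hD (commutator D) fun e => by
        rw [e, card_bot] at hc; omega
      exact ⟨z, hz, hzZ, hz1, hz2, fun g hg => by rw [hsq g hg]; exact one_mem _⟩
    push Not at hsq
    obtain ⟨d, hd, hd2⟩ := hsq
    have hri : (zpowers d).relIndex (commutator D) = 2 := by
      have := relIndex_mul_card ((zpowers_le).2 hd)
      rw [Nat.card_zpowers, orderOf_four (h4 d hd) hd2, hc] at this
      omega
    have hs : ∀ g ∈ commutator D, g ^ 2 = 1 ∨ g ^ 2 = d ^ 2 := fun g hg =>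
      eq_of_mem_four (h4 d hd) hd2
        (pow_mem_of_relIndex_prime (hD.to_subgroup _) ((zpowers_le).2 hd) hri hg)
        (by rw [← pow_mul]; exact h4 g hg)
    refine ⟨d ^ 2, pow_mem hd 2, mem_center_iff.2 fun g => ?_, hd2,
      by rw [← pow_mul]; exact h4 d hd, fun g hg => ?_⟩
    · rw [← mul_inv_eq_iff_eq_mul, ← conj_pow]
      refine (hs _ ((inferInstance : (commutator D).Normal).conj_mem d hd g)).resolve_left
        fun h' => hd2 ?_
      rwa [conj_pow, mul_inv_eq_one, mul_eq_left] at h'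
    · rcases hs g hg with e | e
      · rw [e]; exact one_mem _
      · rw [e]; exact mem_zpowers _
  refine ⟨u, huZ, fun Q _ π hπ hker => famG_of h64 hgen hu1 hu2 ?_ hs hπ hker⟩
  rw [inf_eq_left.2 ((zpowers_le).2 hu), card_two hu1 hu2, hc]

theorem case_klein (hD : IsPGroup 2 D) (hc : Nat.card (commutator D) = 4)
    (h2 : ∀ g ∈ commutator D, g ^ 2 = 1) :
    ∃ u ∈ center D, ∀ (Q : Type u) [Group Q] (π : D →* Q), Function.Surjective π →
      π.ker = zpowers u → FamG Q := by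
  have hn : (commutator D).Normal := inferInstance
  obtain ⟨v, hv, hvZ⟩ := SetLike.not_le_iff_exists.1 (not_central h64 hgen hZ)
  obtain ⟨w, hw, hwZ, hw1, hw2⟩ := exists_mem_center_of_normal hD (commutator D) fun e => by
    rw [e, card_bot] at hc; omega
  have hri : (zpowers w).relIndex (commutator D) = 2 := by
    have := relIndex_mul_card ((zpowers_le).2 hw)
    rw [card_two hw1 hw2, hc] at this
    omega
  have hvw : ∀ g, g * v * g⁻¹ ∉ zpowers w := fun g h => hvZ (by
    have := (inferInstance : (center D).Normal).conj_mem _ ((zpowers_le.2 hwZ) h) g⁻¹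
    simpa [mul_assoc] using this)
  have hel : ∀ c ∈ commutator D, c ∉ zpowers w → c = v ∨ c = v * w := fun c hc' hcw => by
    have h1 : (⟨v⁻¹, inv_mem hv⟩ * ⟨c, hc'⟩ : commutator D) ∈ (zpowers w).subgroupOf _ := by
      refine (mul_mem_iff_of_index_two hri).2 (iff_of_false (fun h => hvw 1 ?_) fun h => hcw ?_)
      · simpa using inv_mem (mem_subgroupOf.1 h)
      · exact mem_subgroupOf.1 h
    rcases eq_of_mem_two hw2 (mem_subgroupOf.1 h1) with e | e
    · exact Or.inl (inv_mul_eq_one.1 e).symm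
    · exact Or.inr (inv_mul_eq_iff_eq_mul.1 e)
  have hout : ∀ g ∉ centralizer ({v} : Set D), g * v * g⁻¹ = v * w := fun g hg =>
    (hel _ (hn.conj_mem v hv g) (hvw g)).resolve_left fun e =>
      hg (mem_cent.2 (mul_inv_eq_iff_eq_mul.1 e))
  have hMi : (centralizer ({v} : Set D)).index = 2 := by
    refine index_two_of (cent_lt hvZ).ne fun a b ha hb => mem_cent.2 ?_
    rw [← mul_inv_eq_iff_eq_mul]
    calc a * b * v * (a * b)⁻¹ = a * (b * v * b⁻¹) * a⁻¹ := by group
      _ = (a * v * a⁻¹) * (a * w) * a⁻¹ := by rw [hout b hb]; group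
      _ = v * w ^ 2 := by rw [hout a ha, mem_center_iff.1 hwZ a, pow_two]; group
      _ = v := by rw [hw2, mul_one]
  have hM : ∀ g ∈ centralizer ({v} : Set D), ∀ c ∈ commutator D, g * c = c * g := by
    intro g hg c hc'
    by_cases hcw : c ∈ zpowers w
    · exact mem_center_iff.1 ((zpowers_le.2 hwZ) hcw) g
    rcases hel c hc' hcw with rfl | rfl
    · exact mem_cent.1 hg
    · rw [← mul_assoc, mem_cent.1 hg, mul_assoc, mem_center_iff.1 hwZ g, mul_assoc]
  obtain ⟨h, hh, t, -, hg⟩ := exists_pair hMi hgen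
  have hh2 : h ^ 2 ∈ center D := by
    refine mem_center_of_gen hg (Commute.self_pow h 2).eq ?_
    rw [← mul_inv_eq_iff_eq_mul, conj_sq (hM h hh _ (conj_comm_mem t h)),
      h2 _ (conj_comm_mem t h), mul_one]
  have ht4 : t ^ 4 ∈ center D := by
    refine mem_center_of_gen hg ?_ (Commute.self_pow t 4).eq
    have h1 := conj_comm_mem h (t ^ 2)
    rw [← mul_inv_eq_iff_eq_mul, show 4 = 2 * 2 from rfl, pow_mul,
      conj_sq (hM _ (sq_mem_of_index_two hMi t) _ h1), h2 _ h1, mul_one]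
  obtain ⟨u, huZ, hu⟩ : ∃ u ∈ center D, u ∉ commutator D := by
    by_contra hcon
    push Not at hcon
    have c1 := step le_rfl (g := h) (hcon _ hh2)
    have c2 := step (le_sup_left (b := zpowers h)) (g := t ^ 2)
      (by rw [← pow_mul]; exact mem_sup_left (hcon _ ht4))
    have c3 := step ((le_sup_left (b := zpowers h)).trans (le_sup_left (b := zpowers (t ^ 2))))
      (g := t) (mem_sup_right (mem_zpowers _))
    rw [show commutator D ⊔ zpowers h ⊔ zpowers (t ^ 2) ⊔ zpowers t = ⊤ from top_le_iff.1 (by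
      rw [← hg]
      exact sup_le (le_sup_right.trans (le_sup_left.trans le_sup_left)) le_sup_right),
      card_top] at c3
    omega
  refine ⟨u, huZ, fun Q _ π hπ hker => famG_of h64 hgen (fun e => hu (by rw [e]; exact one_mem _))
    (hZ u huZ) ?_
    (fun g hg => by rw [h2 g hg]; exact one_mem _) hπ hker⟩
  have : zpowers u ⊓ commutator D = ⊥ := eq_bot_iff.2 fun c hc' => by
    rcases eq_of_mem_two (hZ u huZ) hc'.1 with e | e
    · exact mem_bot.2 e
    · exact absurd (e ▸ hc'.2) hu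
  rw [this, card_bot, hc]

theorem case_cyclic (hc : Nat.card (commutator D) = 4) {e0 : D} (he0 : e0 ∈ commutator D)
    (h2 : e0 ^ 2 ≠ 1) :
    ∃ u ∈ center D, ∀ (Q : Type u) [Group Q] (π : D →* Q), Function.Surjective π →
      π.ker = zpowers u → ∃ a c t : Q, FamA 3 a c t := by
  have hc4 : ∀ d ∈ commutator D, d ^ 4 = 1 := fun d hd => by
    have := pow_card_eq_one' (x := (⟨d, hd⟩ : commutator D))
    rw [hc] at this
    exact congrArg Subtype.val this
  have hze : zpowers e0 = commutator D := eq_of_le_of_card_le ((zpowers_le).2 he0) (by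
    rw [Nat.card_zpowers, orderOf_four (hc4 e0 he0) h2, hc]; norm_num)
  have hcj : ∀ {e : D}, e ∈ commutator D → ∀ g, g * e * g⁻¹ ∈ zpowers e := fun {e} he g => by
    obtain ⟨j, rfl⟩ : e ∈ zpowers e0 := hze ▸ he
    obtain ⟨k, hk⟩ : g * e0 * g⁻¹ ∈ zpowers e0 :=
      hze ▸ (inferInstance : (commutator D).Normal).conj_mem e0 he0 g
    simp only at hk ⊢
    rw [← conj_zpow, ← hk, ← zpow_mul, mul_comm, zpow_mul]
    exact zpow_mem (mem_zpowers _) k
  obtain ⟨hMi, hinv⟩ := index_cent_four (hc4 e0 he0) h2 (hcj he0) fun h => h2 (hZ _ h)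
  obtain ⟨h, hh, t, ht, hg⟩ := exists_pair hMi hgen
  have he := conj_comm_mem t h
  obtain ⟨e, hedef⟩ : ∃ e, e = h⁻¹ * (t * h * t⁻¹) := ⟨_, rfl⟩
  rw [← hedef] at he
  have hn : (zpowers e).Normal := ⟨fun n hn g =>
    (zpowers_le.2 hn) (hcj ((zpowers_le.2 he) hn) g)⟩
  have hez : commutator D ≤ zpowers e := comm_le_of_gen hg _ (hedef ▸ mem_zpowers e)
  have he2 : e ^ 2 ≠ 1 := fun h' => by
    have h1 := card_zpowers_le (by norm_num) h'
    have h3 := card_le_of_le hez
    omega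
  have hhe : Commute h e := comm_zpowers (mem_cent.1 hh) e (hze ▸ he)
  have hte : t * e * t⁻¹ = e⁻¹ := by
    obtain ⟨j, hj⟩ : e ∈ zpowers e0 := hze ▸ he
    simp only at hj
    rw [← hj, ← conj_zpow, hinv t ht, inv_zpow]
  have hth : t * h * t⁻¹ = h * e := by rw [hedef]; group
  have hth2 : t * h ^ 2 * t⁻¹ = h ^ 2 * e ^ 2 := by rw [← conj_pow, hth, hhe.mul_pow]
  have hsZ : t ^ 2 ∈ center D := by
    refine mem_center_of_gen hg ?_ (Commute.self_pow t 2).eq
    calc h * t ^ 2 = (t * h * t⁻¹) * (t * e * t⁻¹) * t ^ 2 := by rw [hth, hte]; group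
      _ = t * (h * e) * t⁻¹ * t ^ 2 := by group
      _ = t ^ 2 * h := by rw [← hth, pow_two]; group
  obtain ⟨f, hf⟩ : ∃ f, f = h ^ 2 * e := ⟨_, rfl⟩
  have hfZ : f ∈ center D := by
    refine mem_center_of_gen hg ?_ ?_
    · rw [hf]; exact ((Commute.self_pow h 2).mul_right hhe).eq
    · rw [← mul_inv_eq_iff_eq_mul, hf]
      calc t * (h ^ 2 * e) * t⁻¹ = (t * h ^ 2 * t⁻¹) * (t * e * t⁻¹) := by group
        _ = h ^ 2 * e := by rw [hth2, hte, pow_two e]; group
  have hh4 : h ^ 4 = e ^ 2 := by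
    have h1 := hZ f hfZ
    rw [hf, (hhe.pow_left 2).mul_pow, ← pow_mul, mul_eq_one_iff_eq_inv] at h1
    rw [h1, inv_eq_iff_mul_eq_one, ← pow_add]
    exact hc4 e he
  have hh8 : h ^ 8 = 1 := by
    rw [show 8 = 4 * 2 from rfl, pow_mul, hh4, ← pow_mul]; exact hc4 e he
  have hcn : ∀ {z : D} (N : Subgroup D), z ∈ center D → z ∈ normalizer (N : Set D) :=
    fun N hz => mem_norm_of_comm fun n _ => (mem_center_iff.1 hz n).symm
  have c0 := card_zpowers_le (by norm_num) hh8
  have c1 := card_sup_le (hcn (zpowers h) hfZ) (by rw [hZ f hfZ]; exact one_mem _)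
  have c2 := card_sup_le (hcn (zpowers h ⊔ zpowers f) hsZ) (by rw [hZ _ hsZ]; exact one_mem _)
  have hle : commutator D ≤ zpowers h ⊔ zpowers f ⊔ zpowers (t ^ 2) := by
    refine hez.trans ((zpowers_le).2 (mem_sup_left ?_))
    rw [show e = (h ^ 2)⁻¹ * f by rw [hf]; group]
    exact mul_mem (inv_mem (mem_sup_left (pow_mem (mem_zpowers h) 2)))
      (mem_sup_right (mem_zpowers f))
  have c3 := step hle (g := t) (mem_sup_right (mem_zpowers _))
  rw [show zpowers h ⊔ zpowers f ⊔ zpowers (t ^ 2) ⊔ zpowers t = ⊤ from top_le_iff.1 (by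
    rw [← hg]
    exact sup_le (le_sup_left.trans (le_sup_left.trans le_sup_left)) le_sup_right),
    card_top] at c3
  have hfh : f ∉ zpowers h := fun h' => by
    rw [sup_eq_left.2 ((zpowers_le).2 h')] at c2 c3
    omega
  have hsh : t ^ 2 ∉ zpowers h ⊔ zpowers f := fun h' => by
    rw [sup_eq_left.2 ((zpowers_le).2 h')] at c3
    omega
  have hk : ∀ g ∈ zpowers h ⊔ zpowers f, g ∈ zpowers (t ^ 2) → g = 1 := fun g hg1 hg2 =>
    (eq_of_mem_two (hZ _ hsZ) hg2).resolve_right fun e' => hsh (e' ▸ hg1)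
  refine ⟨t ^ 2, hsZ, fun Q _ π hπ hker => ⟨π h, π f, π t, ⟨le_rfl, ?_, ?_, ?_, ?_, ?_, ?_⟩, ?_⟩⟩
  · refine orderOf_eight (by rw [← map_pow, hh8, map_one]) fun h' => he2 ?_
    rw [← map_pow, ← MonoidHom.mem_ker, hker] at h'
    rw [← hh4]
    exact hk _ (mem_sup_left (pow_mem (mem_zpowers h) 4)) h'
  · rw [← map_pow, hZ f hfZ, map_one]
  · rintro ⟨i, hi⟩
    simp only at hi
    rw [← map_zpow, ← inv_mul_eq_one, ← map_inv, ← map_mul, ← MonoidHom.mem_ker, hker] at hi
    have := hk _ (mul_mem (inv_mem (mem_sup_left (zpow_mem (mem_zpowers h) i)))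
      (mem_sup_right (mem_zpowers f))) hi
    exact hfh ⟨i, inv_mul_eq_one.1 this⟩
  · rw [← map_mul, ← map_mul, mem_center_iff.1 hfZ h]
  · rw [← MonoidHom.map_zpowers, ← MonoidHom.map_zpowers, ← Subgroup.map_sup, index_map, hker,
      MonoidHom.range_eq_top.2 hπ, index_top, mul_one]
    have := (zpowers h ⊔ zpowers f ⊔ zpowers (t ^ 2)).card_mul_index
    rw [show Nat.card ↥(zpowers h ⊔ zpowers f ⊔ zpowers (t ^ 2)) = 32 by omega, h64] at this
    omega
  · rw [← map_pow, ← map_inv, ← map_inv, ← map_mul, ← map_mul, hth2, ← hh4,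
      eq_inv_of_mul_eq_one_left (show h ^ 2 * h ^ 4 * h ^ 2 = 1 by
        rw [← pow_add, ← pow_add]; exact hh8)]
  · refine mem_center_iff.2 fun q => ?_
    obtain ⟨g, rfl⟩ := hπ q
    rw [← map_mul, ← map_mul, mem_center_iff.1 hfZ g]

end

end GGen

open GGen in
theorem cases_two_gen {D : Type u} [Group D] [Finite D] (hD : IsPGroup 2 D)
    (h64 : Nat.card D ≤ 64) {x y : D} (hgen : zpowers x ⊔ zpowers y = ⊤) :
    (∃ a : D, (zpowers a).index ≤ 4) ∨ (∃ u ∈ center D, (zpowers u).index ≤ 16) ∨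
    ∃ u ∈ center D, ∀ (Q : Type u) [Group Q] (π : D →* Q), Function.Surjective π →
      π.ker = zpowers u → (∃ a c t : Q, FamA 3 a c t) ∨ FamG Q := by
  have hidx : ∀ (a : D) (n m : ℕ), a ^ 2 ^ n ≠ 1 → Nat.card D ≤ 2 ^ (n + 1) * m →
      (zpowers a).index ≤ m := by
    intro a n m ha hm
    obtain ⟨k, hk⟩ := IsPGroup.iff_orderOf.1 hD a
    have h1 := (zpowers a).card_mul_index
    rw [Ne, ← orderOf_dvd_iff_pow_eq_one, hk, Nat.pow_dvd_pow_iff_le_right (by norm_num)] at ha
    rw [Nat.card_zpowers, hk] at h1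
    have h2 : 2 ^ (n + 1) ≤ 2 ^ k := Nat.pow_le_pow_right (by norm_num) (by omega)
    refine Nat.le_of_mul_le_mul_left (c := 2 ^ (n + 1)) ?_ (by positivity)
    exact ((Nat.mul_le_mul_right _ h2).trans h1.le).trans hm
  by_cases h32 : Nat.card D ≤ 32
  · refine Or.inr (Or.inl ?_)
    by_cases h1 : Nat.card D ≤ 16
    · exact ⟨1, one_mem _, (G2.index_le_card _).trans h1⟩
    have hnt : Nontrivial D := Finite.one_lt_card_iff_nontrivial.1 (by omega)
    have := hD.center_nontrivial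
    obtain ⟨⟨u, hu⟩, hu1⟩ := exists_ne (1 : center D)
    exact ⟨u, hu, hidx u 0 16 (by simpa using hu1) (by omega)⟩
  have h64' : Nat.card D = 64 := by
    obtain ⟨k, hk⟩ := hD.exists_card_eq
    rw [hk] at h32 h64 ⊢
    have h2 : k < 7 := (Nat.pow_lt_pow_iff_right (by norm_num : 1 < 2)).1 (by omega)
    interval_cases k <;> omega
  by_cases h8 : ∀ a : D, a ^ 8 = 1
  swap
  · push Not at h8
    obtain ⟨a, ha⟩ := h8
    exact Or.inl ⟨a, hidx a 3 4 ha (by omega)⟩
  by_cases hZ : ∀ u ∈ center D, u ^ 2 = 1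
  swap
  · push Not at hZ
    obtain ⟨u, hu, ha⟩ := hZ
    exact Or.inr (Or.inl ⟨u, hu, hidx u 1 16 ha (by omega)⟩)
  have hnc := not_central h64' hgen hZ
  have hna : ¬ ∀ x y : D, x * y = y * x := fun h =>
    hnc fun g _ => mem_center_iff.2 fun a => h a g
  obtain ⟨k, hk⟩ := G2.card_eq_two_pow hD (commutator D)
  have hi := (commutator D).card_mul_index
  obtain ⟨c, hc⟩ := four_dvd_index_commutator hD hna
  rw [hk, h64'] at hi
  have hk4 : k < 5 := by
    refine (Nat.pow_lt_pow_iff_right (by norm_num : 1 < 2)).1 ?_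
    rw [hc] at hi
    rcases c with _ | c
    · omega
    · nlinarith
  interval_cases k
  · exact absurd (by rw [card_eq_one.1 hk]; exact bot_le) hnc
  · exact absurd (le_center_of_normal_card_prime hD _ hk) hnc
  · refine Or.inr (Or.inr ?_)
    by_cases h2 : ∀ g ∈ commutator D, g ^ 2 = 1
    · obtain ⟨u, hu, h⟩ := case_klein h64' hgen hZ hD hk h2
      exact ⟨u, hu, fun Q _ π hπ hker => Or.inr (h Q π hπ hker)⟩
    · push Not at h2
      obtain ⟨e, he, he2⟩ := h2
      obtain ⟨u, hu, h⟩ := case_cyclic h64' hgen hZ hk he he2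
      exact ⟨u, hu, fun Q _ π hπ hker => Or.inl (h Q π hπ hker)⟩
  · obtain ⟨u, hu, h⟩ := case_eight h64' hgen hD hk (not_cyclic_eight h64' hgen hZ h8 hk)
    exact Or.inr (Or.inr ⟨u, hu, fun Q _ π hπ hker => Or.inr (h Q π hπ hker)⟩)
  · obtain ⟨a, ha⟩ := exists_index_two_of_index_commutator hD (by omega)
    exact Or.inl ⟨a, by omega⟩

end Cfsg.Agent.KB
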